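import Cfsg.Agent.Lib.Helper2.BG10B
import Cfsg.Agent.Lib.Helper66.PLength
import Cfsg.Agent.Lib.Helper40.TransferRed2
import Cfsg.Agent.Lib.Helper58.BG9a
import Cfsg.Agent.S1450
import Cfsg.Agent.S1459
import Cfsg.Agent.S1461

/-!
Bender-Glauberman 10.2(c), 10.6, 10.7, conditional on the texts of earlier statements
(`UT G` = Uniqueness Theorem S1403, and the texts of S1405, S1407, S1444, S1448).
-/

set_option autoImplicit false

namespace Cfsg.Agent.Lib.Helper68

open Subgroup Cfsg.Agent.Lib.Helper30 Cfsg.Agent.Lib.Helper2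
open scoped commutatorElement

universe u

variable {G : Type u} [Group G]

/-- a minimal simple group is perfect. -/
theorem commutator_eq_top_of_minSimple (hG : Cfsg.IsMinSimpleOddOrder G) : commutator G = ⊤ := by
  obtain ⟨_, hs, hna, _⟩ := hG
  have hn : (commutator G).Normal := inferInstance
  rcases hn.eq_bot_or_eq_top with h | h
  · exfalso
    apply hna
    refine ⟨⟨fun a b => ?_⟩⟩
    have h1 : ⁅a, b⁆ ∈ commutator G := Subgroup.commutator_mem_commutator (mem_top a) (mem_top b)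
    rw [h, mem_bot] at h1
    exact commutatorElement_eq_one_iff_mul_comm.mp h1
  · exact h

theorem normalizer_le_of_mem_sigma [Finite G] {M : Subgroup G} {p : ℕ} [Fact p.Prime]
    (hp : p ∈ Cfsg.sigma M) {P : Subgroup G} (hP : IsSylowIn p P M) :
    normalizer (P : Set G) ≤ M := by
  obtain ⟨P0, hP0, hN⟩ := exists_sylow_of_mem_sigma hp
  obtain ⟨m, hm, rfl⟩ := hP0.conj hP
  rw [normalizer_cj]
  calc cj m (normalizer (P0 : Set G)) ≤ cj m M := cj_mono m hN
    _ = M := cj_eq_of_mem hm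

theorem mem_sigma_of_normalizer_le [Finite G] {M : Subgroup G} {p : ℕ} [hp : Fact p.Prime]
    {P : Subgroup G} (hP : IsSylowIn p P M) (hP1 : P ≠ ⊥) (hN : normalizer (P : Set G) ≤ M) :
    p ∈ Cfsg.sigma M := by
  refine ⟨hp.out, ?_, ?_⟩
  · exact (dvd_card_of_isPGroup_ne_bot hP.isPGroup hP1).trans (card_dvd_of_le hP.le)
  · obtain ⟨P', hP'⟩ := hP.exists_sylow
    exact ⟨P', by rw [hP']; exact hN⟩

/-- B-G 10.2(c), Sylow form: for `p ∈ σ(M)` the Sylow `p`-subgroups of `M` lie in `M'`. -/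
theorem sylow_le_commutator_of_mem_sigma [Finite G] (hG : Cfsg.IsMinSimpleOddOrder G) (hU : UT G)
    {M : Subgroup G} (hM : IsCoatom M) {p : ℕ} [Fact p.Prime] (hp : p ∈ Cfsg.sigma M)
    {P : Subgroup G} (hP : IsSylowIn p P M) : P ≤ ⁅M, M⁆ := by
  have hN := normalizer_le_of_mem_sigma hp hP
  have hPt := isSylowIn_top_of_normalizer_le hP hN
  have hidx : ¬ p ∣ P.index := by
    have := hPt.not_dvd
    rwa [relIndex_top_right] at this
  have key := Cfsg.Agent.Lib.Helper40.sylow_inf_commutator_le_of_focal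
    (hP.isPGroup.toSylow hidx) ⁅M, M⁆ ?_
  · rw [commutator_eq_top_of_minSimple hG, inf_top_eq] at key
    exact key
  · intro x hx u hu
    have hx' : x ∈ P := hx
    have hu' : u * x * u⁻¹ ∈ P := hu
    by_cases hx1 : x = 1
    · subst hx1
      rw [commutatorElement_one_left]
      exact one_mem _
    have hXp : IsPGroup p (zpowers x) := hP.isPGroup.to_le (zpowers_le.mpr hx')
    have hX1 : zpowers x ≠ ⊥ := by
      rw [Ne, zpowers_eq_bot]; exact hx1
    have hXM : zpowers x ≤ M := zpowers_le.mpr (hP.le hx')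
    have hcj : cj u (zpowers x) ≤ M := by
      rw [cj, MonoidHom.map_zpowers, zpowers_le]
      exact hP.le hu'
    obtain ⟨m, hm, c, hc, rfl⟩ := ctl_of_mem_sigma hG hU hM hp hXp hX1 hXM u hcj
    have hcx : Commute c x := (mem_centralizer_iff.mp hc x (mem_zpowers x)).symm
    have e : ⁅x, m * c⁆ = ⁅x, m⁆ := by
      rw [commutatorElement_def, commutatorElement_def, mul_inv_rev]
      calc x * (m * c) * x⁻¹ * (c⁻¹ * m⁻¹) = x * m * (c * x⁻¹) * c⁻¹ * m⁻¹ := by group
        _ = x * m * (x⁻¹ * c) * c⁻¹ * m⁻¹ := by rw [hcx.inv_right.eq]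
        _ = x * m * x⁻¹ * m⁻¹ := by group
    rw [e]
    exact commutator_mem_commutator (hP.le hx') hm

/-- a subgroup lies in `D` as soon as one Sylow subgroup for each prime does. -/
theorem le_of_forall_isSylowIn [Finite G] {H D : Subgroup G}
    (h : ∀ (p : ℕ) [Fact p.Prime], p ∣ Nat.card H → ∃ S : Subgroup G, IsSylowIn p S H ∧ S ≤ D) :
    H ≤ D := by
  rw [← relIndex_eq_one]
  by_contra hne
  obtain ⟨p, hp, hpd⟩ := Nat.exists_prime_and_dvd hne
  have : Fact p.Prime := ⟨hp⟩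
  obtain ⟨S, hS, hSD⟩ := h p (hpd.trans (relIndex_dvd_card D H))
  have h1 : S ≤ D ⊓ H := le_inf hSD hS.le
  apply hS.not_dvd
  rw [← inf_relIndex_right] at hpd
  exact hpd.trans (relIndex_dvd_of_le_left H h1)

/-- a maximal subgroup is not a `σ(M)`-group. -/
theorem exists_prime_not_mem_sigma [Finite G] (hG : Cfsg.IsMinSimpleOddOrder G) (hU : UT G)
    {M : Subgroup G} (hM : IsCoatom M) (hM1 : M ≠ ⊥) :
    ∃ q : ℕ, q.Prime ∧ q ∣ Nat.card M ∧ q ∉ Cfsg.sigma M := by
  by_contra hcon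
  push Not at hcon
  have h1 : M ≤ ⁅M, M⁆ := by
    apply le_of_forall_isSylowIn
    intro p _ hpM
    obtain ⟨S, hS⟩ := exists_isSylowIn p M
    exact ⟨S, hS, sylow_le_commutator_of_mem_sigma hG hU hM (hcon p Fact.out hpM) hS⟩
  exact absurd h1 (not_le_of_gt (commutator_lt_of_solvable (solvable_of_ne_top hG hM.1) hM1))

/-- `α(M) ⊆ σ(M)`. -/
theorem mem_sigma_of_mem_alpha [Finite G] (hG : Cfsg.IsMinSimpleOddOrder G) (hU : UT G)
    {M : Subgroup G} (hM : IsCoatom M) {p : ℕ} (hp : p ∈ Cfsg.alpha M) : p ∈ Cfsg.sigma M := by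
  obtain ⟨hpp, hr⟩ := hp
  have : Fact p.Prime := ⟨hpp⟩
  obtain ⟨E, hEM, hE, hcard⟩ := exists_elementary_of_not_pRankLE hr
  obtain ⟨P, hP, hEP⟩ := exists_isSylowIn_ge hEM (ea_isPGroup hE)
  have hPtop : P ≠ ⊤ := fun h => hM.1 (top_le_iff.mp (h ▸ hP.le))
  have hE1 : E ≠ ⊥ := by
    rintro rfl
    rw [card_bot] at hcard
    exact absurd hcard (not_lt.mpr (Nat.one_le_pow _ _ hpp.pos))
  have hP1 : P ≠ ⊥ := fun h => hE1 (le_bot_iff.mp (h ▸ hEP))
  have h1 : ¬ Cfsg.RankLE 1 P := not_rankLE_of_elementary hpp hEP hE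
    (lt_of_le_of_lt (Nat.pow_le_pow_right hpp.pos (by norm_num)) hcard)
  have h2 : ¬ Cfsg.RankLE 2 P := not_rankLE_of_elementary hpp hEP hE hcard
  have hu := hU P hPtop h1 (Or.inl h2)
  exact mem_sigma_of_normalizer_le hP hP1
    (uniq_le hu hM hP.le le_normalizer (normalizer_ne_top hG hP1 hPtop))

/-! ### p-length one (B-G 10.6) -/

theorem pLengthLE_one_of_coprime_index {X : Type*} [Group X] [Finite X] {p : ℕ} [Fact p.Prime]
    (h : (Cfsg.pPrimePCore p X).index.Coprime p) : Cfsg.PLengthLE p 1 X := by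
  have h1 : Cfsg.pPrimeCore p X ≤ Cfsg.Agent.Lib.Helper66.ups p X 1 :=
    Cfsg.Agent.Lib.Helper66.le_ups_succ_of_even (j := 0) (X := ⊥) (by simp)
      inferInstance bot_le
      (by rw [relIndex_bot_left]; exact Cfsg.Agent.Lib.Helper14.card_pPrimeCore_coprime)
  obtain ⟨m, hm⟩ := IsPGroup.iff_card.mp
    (Cfsg.Agent.Lib.Helper14.isPGroup_pCore (p := p) (G := X ⧸ Cfsg.pPrimeCore p X))
  have h2 : Cfsg.pPrimePCore p X ≤ Cfsg.Agent.Lib.Helper66.ups p X 2 :=
    Cfsg.Agent.Lib.Helper66.le_ups_succ_of_odd (j := 1) (m := m) (by decide)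
      (Cfsg.Agent.Lib.Helper14.pPrimePCore_normal p X) h1
      (by
        unfold Cfsg.pPrimePCore
        rw [Cfsg.Agent.Lib.Helper14.relIndex_comap_mk', hm])
  have h3 : (⊤ : Subgroup X) ≤ Cfsg.Agent.Lib.Helper66.ups p X 3 :=
    Cfsg.Agent.Lib.Helper66.le_ups_succ_of_even (j := 2) (by decide) inferInstance h2
      (by rw [relIndex_top_right]; exact h)
  exact top_le_iff.mp h3

/-- the part of the text of S1405 which is used. -/
def T1405 (G : Type u) [Group G] : Prop :=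
  ∀ M : Subgroup G, IsCoatom M → Cfsg.IsPiHallOf (Cfsg.alpha M) (Cfsg.alphaCore M) M

/-- the part of the text of S1407 which is used. -/
def T1407 (G : Type u) [Group G] : Prop :=
  ∀ M : Subgroup G, IsCoatom M → Cfsg.alphaCore M ≠ ⊥ → ∀ (p : ℕ) [Fact p.Prime],
    p ∣ Nat.card M → p ∉ Cfsg.sigma M → ∀ P : Sylow p M,
    ∃ x : G, x ∈ ((Subgroup.center ↥(P : Subgroup M)).map (P : Subgroup M).subtype).map M.subtype ∧
      orderOf x = p ∧ IsZGroup ↥(Cfsg.alphaCore M ⊓ Subgroup.centralizer ({x} : Set G))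

/-- the text of S1444 for the group `X`. -/
def T1444 (X : Type u) [Group X] : Prop :=
  Group.IsSolvable X → Odd (Nat.card X) → ∀ (H R R₀ : Subgroup X), H.Normal →
    (Nat.card H).Coprime H.index → Subgroup.IsComplement' H R → R₀ ≤ R → (Nat.card R₀).Prime →
    IsZGroup ↥(H ⊓ Subgroup.centralizer (R₀ : Set X)) →
    ∀ (p : ℕ) [Fact p.Prime], Cfsg.PLengthLE p 1 ↥⁅H, R⁆

/-- `M_α ≤ M'`. -/
theorem alphaCore_le_commutator [Finite G] (hG : Cfsg.IsMinSimpleOddOrder G) (hU : UT G)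
    (h5 : T1405 G) {M : Subgroup G} (hM : IsCoatom M) : Cfsg.alphaCore M ≤ ⁅M, M⁆ := by
  obtain ⟨hle, hpi, -⟩ := h5 M hM
  apply le_of_forall_isSylowIn
  intro q hq hqd
  obtain ⟨S, hS⟩ := exists_isSylowIn q (Cfsg.alphaCore M)
  obtain ⟨P, hP, hSP⟩ := exists_isSylowIn_ge (hS.le.trans hle) hS.isPGroup
  exact ⟨S, hS, hSP.trans (sylow_le_commutator_of_mem_sigma hG hU hM
    (mem_sigma_of_mem_alpha hG hU hM (hpi q hq.out hqd)) hP)⟩

theorem pLengthLE_one_alpha [Finite G] (hG : Cfsg.IsMinSimpleOddOrder G) (hU : UT G)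
    (h5 : T1405 G) (h7 : T1407 G) (h44 : ∀ M : Subgroup G, T1444 ↥M) {M : Subgroup G}
    (hM : IsCoatom M) (p : ℕ) [hpp : Fact p.Prime] (hp : p ∈ Cfsg.alpha M) :
    Cfsg.PLengthLE p 1 ↥M := by
  have hsol : Group.IsSolvable ↥M := solvable_of_ne_top hG hM.1
  have hodd : Odd (Nat.card ↥M) := Cfsg.Agent.Lib.Helper58.BG9.odd_card_subgroup hG M
  obtain ⟨hle, hpi, hidx⟩ := h5 M hM
  set H : Subgroup ↥M := Cfsg.piCore (Cfsg.alpha M) ↥M with hH
  have hHmap : Cfsg.alphaCore M = H.map M.subtype := rfl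
  have hcardH : Nat.card (Cfsg.alphaCore M) = Nat.card H := by
    rw [hHmap, card_map_of_injective M.subtype_injective]
  have hrel : (Cfsg.alphaCore M).relIndex M = H.index := by
    rw [hHmap, relIndex, subgroupOf, comap_map_eq_self_of_injective M.subtype_injective]
  have hHn : H.Normal := inferInstance
  have hcop : (Nat.card H).Coprime H.index := by
    apply Nat.coprime_of_dvd
    intro k hk hk1 hk2
    rw [← hcardH] at hk1
    rw [← hrel] at hk2
    exact hidx k hk (hpi k hk hk1) hk2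
  obtain ⟨R, hR⟩ := exists_right_complement'_of_coprime hcop
  have hHle : H ≤ commutator ↥M := by
    rw [← map_le_map_iff_of_injective M.subtype_injective, map_subtype_commutator, ← hHmap]
    exact alphaCore_le_commutator hG hU h5 hM
  have hpσ := mem_sigma_of_mem_alpha hG hU hM hp
  have hM1 : M ≠ ⊥ := by
    rintro rfl
    have := hpσ.2.1
    rw [card_bot] at this
    exact hpp.out.one_lt.ne' (Nat.dvd_one.mp this)
  have hpH : p ∣ Nat.card H := by
    have h1 : p ∣ Nat.card H * H.index := by rw [card_mul_index]; exact hpσ.2.1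
    rcases (Nat.Prime.dvd_mul hpp.out).mp h1 with h | h
    · exact h
    · rw [← hrel] at h
      exact absurd h (hidx p hpp.out hp)
  have hα1 : Cfsg.alphaCore M ≠ ⊥ := by
    intro h
    rw [← hcardH, h, card_bot] at hpH
    exact hpp.out.one_lt.ne' (Nat.dvd_one.mp hpH)
  obtain ⟨q, hq, hqM, hqσ⟩ := exists_prime_not_mem_sigma hG hU hM hM1
  have : Fact q.Prime := ⟨hq⟩
  have hqH : ¬ q ∣ Nat.card H := by
    intro h
    rw [← hcardH] at h
    exact hqσ (mem_sigma_of_mem_alpha hG hU hM (hpi q hq h))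
  obtain ⟨Q₁⟩ : Nonempty (Sylow q R) := inferInstance
  have hQp : IsPGroup q ((Q₁ : Subgroup R).map R.subtype) := Q₁.2.map _
  have hQidx : ¬ q ∣ ((Q₁ : Subgroup R).map R.subtype).index := by
    rw [index_map_subtype, hR.index_eq_card]
    intro h
    rcases (Nat.Prime.dvd_mul hq).mp h with h | h
    · exact Q₁.not_dvd_index h
    · exact hqH h
  obtain ⟨x, hx, hxo, hxZ⟩ := h7 M hM hα1 q hqM hqσ (hQp.toSylow hQidx)
  obtain ⟨x', hx', rfl⟩ := hx
  obtain ⟨z, -, rfl⟩ := hx'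
  have hzR : (z : ↥M) ∈ R := by
    have h1 : (z : ↥M) ∈ ((Q₁ : Subgroup R).map R.subtype) := z.2
    exact map_subtype_le _ h1
  set x' : ↥M := (z : ↥M) with hx'def
  have hxo' : orderOf x' = q := by
    rw [← hxo]
    exact (Subgroup.orderOf_coe x').symm
  have hZ : IsZGroup ↥(H ⊓ centralizer ((zpowers x' : Subgroup ↥M) : Set ↥M)) := by
    let f : ↥(H ⊓ centralizer ((zpowers x' : Subgroup ↥M) : Set ↥M)) →*
        ↥(Cfsg.alphaCore M ⊓ centralizer ({(x' : G)} : Set G)) :=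
      (M.subtype.comp (Subgroup.subtype _)).codRestrict _ (by
        intro y
        refine mem_inf.mpr ⟨⟨y.1, (mem_inf.mp y.2).1, rfl⟩, ?_⟩
        rw [mem_centralizer_singleton_iff]
        have h1 := mem_centralizer_iff.mp (mem_inf.mp y.2).2 x' (mem_zpowers x')
        exact (congrArg (Subtype.val : ↥M → G) h1).symm)
    have hf : Function.Injective f := by
      intro a b hab
      have h1 := congrArg (Subtype.val) hab
      exact Subtype.ext (Subtype.ext h1)
    have hxZ' : IsZGroup ↥(Cfsg.alphaCore M ⊓ centralizer ({(x' : G)} : Set G)) := hxZ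
    exact IsZGroup.of_injective hf
  have hpl := h44 M hsol hodd H R (zpowers x') hHn hcop hR (zpowers_le.mpr hzR)
    (by rw [Nat.card_zpowers, hxo']; exact hq) hZ p
  have e := ((Cfsg.Agent.S1459.result (G := ↥M)).1 H R hHn hcop hR hHle).1
  rw [← e] at hpl
  have hQ0 : Cfsg.PLengthLE p 0 (↥M ⧸ H) := by
    apply Cfsg.Agent.Lib.Helper66.pLengthLE_zero_of_coprime
    rw [← index_eq_card, ← hrel]
    exact (Nat.Prime.coprime_iff_not_dvd hpp.out).mpr (hidx p hpp.out hp) |>.symm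
  exact Cfsg.Agent.Lib.Helper66.pLengthLE_extension H hpl hQ0

/-- the text of S1410 for the group `G`. -/
def T1410 (G : Type u) [Group G] : Prop :=
  ∀ (p : ℕ) [Fact p.Prime] (H : Subgroup G), H ≠ ⊤ → Cfsg.PLengthLE p 1 ↥H

/-- B-G 10.6 (statement S1410), conditional. -/
theorem S1410_of [Finite G] (hG : Cfsg.IsMinSimpleOddOrder G) (hU : UT G)
    (h5 : T1405 G) (h7 : T1407 G) (h44 : ∀ M : Subgroup G, T1444 ↥M) : T1410 G := by
  intro p hpp H hH
  obtain ⟨M, hM, hHM⟩ := exists_coatom_ge hH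
  have hsol : Group.IsSolvable ↥M := solvable_of_ne_top hG hM.1
  have hodd : Odd (Nat.card ↥M) := Cfsg.Agent.Lib.Helper58.BG9.odd_card_subgroup hG M
  have key : Cfsg.PLengthLE p 1 ↥M := by
    by_cases hp : p ∈ Cfsg.alpha M
    · exact pLengthLE_one_alpha hG hU h5 h7 h44 hM p hp
    · have hr : Cfsg.PRankLE p 2 ↥M := by
        by_contra h
        exact hp ⟨hpp.out, h⟩
      by_cases hpM : p ∣ Nat.card ↥M
      · exact pLengthLE_one_of_coprime_index
          (Cfsg.Agent.S1450.result hodd p hpM hr).2.2.2.2.2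
      · exact Cfsg.Agent.Lib.Helper66.PLengthLE_mono
          (Cfsg.Agent.Lib.Helper66.pLengthLE_zero_of_coprime
            ((Nat.Prime.coprime_iff_not_dvd hpp.out).mpr hpM).symm) (Nat.zero_le 1)
  exact Cfsg.Agent.Lib.Helper66.pLengthLE_of_equiv (subgroupOfEquivOfLe hHM)
    (Cfsg.Agent.Lib.Helper66.pLengthLE_subgroup (H.subgroupOf M) key)

/-! ### Relative forms of S1461 and S1459 -/

theorem sylow_eq_subgroupOf {M P : Subgroup G} {p : ℕ} {S : Sylow p M}
    (hS : (S : Subgroup M).map M.subtype = P) : (S : Subgroup M) = P.subgroupOf M := by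
  rw [← hS]
  exact (comap_map_eq_self_of_injective M.subtype_injective _).symm

theorem coe_mem_normalizer_of_mem {M P : Subgroup G} {S : Subgroup M}
    (hS : S.map M.subtype = P) {n : M} (hn : n ∈ normalizer (S : Set M)) :
    (n : G) ∈ M ⊓ normalizer (P : Set G) := by
  refine mem_inf.mpr ⟨n.2, mem_normalizer_of_cj_eq ?_⟩
  have h1 := map_cj M.subtype n S
  rw [cj_eq_of_mem_normalizer hn, hS] at h1
  exact h1.symm

theorem sylow_le_commutator_normalizer [Finite G] {M P : Subgroup G} {p : ℕ} [Fact p.Prime]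
    (hsol : Group.IsSolvable ↥M) (hpl : Cfsg.PLengthLE p 1 ↥M) (hP : IsSylowIn p P M)
    (hle : P ≤ ⁅M, M⁆) :
    P ≤ ⁅M ⊓ normalizer (P : Set G), M ⊓ normalizer (P : Set G)⁆ := by
  obtain ⟨S, hS⟩ := hP.exists_sylow
  have h1 : (S : Subgroup M) ≤ commutator ↥M := by
    rw [← map_le_map_iff_of_injective M.subtype_injective, map_subtype_commutator, hS]
    exact hle
  have h2 := (Cfsg.Agent.S1461.result p hpl S).1 h1
  have h3 := Subgroup.map_mono (f := M.subtype) h2
  rw [hS, map_commutator] at h3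
  have h4 : (normalizer ((S : Subgroup M) : Set M)).map M.subtype ≤ M ⊓ normalizer (P : Set G) := by
    rintro _ ⟨n, hn, rfl⟩
    exact coe_mem_normalizer_of_mem hS hn
  exact h3.trans (commutator_mono h4 h4)

theorem fusion_of_pLength_one [Finite G] {M P Q : Subgroup G} {p : ℕ} [Fact p.Prime]
    (hsol : Group.IsSolvable ↥M) (hpl : Cfsg.PLengthLE p 1 ↥M) (hP : IsSylowIn p P M)
    (hQ : Q ≤ P) {m : G} (hm : m ∈ M) (hmQ : cj m Q ≤ P) :
    ∃ g ∈ M ⊓ normalizer (P : Set G), cj m Q = cj g Q := by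
  obtain ⟨S, hS⟩ := hP.exists_sylow
  have hS' := sylow_eq_subgroupOf hS
  obtain ⟨g, hg, c, hc, hgc⟩ := (Cfsg.Agent.S1461.result p hpl S).2.1
    ((Q.subgroupOf M : Subgroup M) : Set M) ⟨m, hm⟩ (by
      intro y hy
      rw [hS']
      exact mem_subgroupOf.mpr (hQ (mem_subgroupOf.mp hy))) (by
      rintro _ ⟨y, hy, rfl⟩
      rw [hS']
      exact mem_subgroupOf.mpr (hmQ (conj_mem_cj (mem_subgroupOf.mp hy))))
  refine ⟨g, coe_mem_normalizer_of_mem hS hg, ?_⟩
  have hc' : (c : G) ∈ centralizer (Q : Set G) := by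
    rw [mem_centralizer_iff]
    intro y hy
    have h1 := mem_centralizer_iff.mp hc ⟨y, hP.le (hQ hy)⟩ (mem_subgroupOf.mpr hy)
    exact congrArg (Subtype.val : ↥M → G) h1
  have e : m = (g : G) * (c : G) := (congrArg (Subtype.val : ↥M → G) hgc).symm
  rw [e, cj_mul, cj_eq_of_mem_normalizer (centralizer_le_normalizer' Q hc')]

theorem isComplement'_of_isComplIn {A B M : Subgroup G} (h : Cfsg.IsComplIn A B M) :
    IsComplement' (A.subgroupOf M) (B.subgroupOf M) := by
  obtain ⟨hA, hB, hAB, hmul⟩ := h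
  apply isComplement'_of_disjoint_and_mul_eq_univ
  · rw [disjoint_iff, eq_bot_iff]
    intro x hx
    have h1 : (x : G) ∈ A ⊓ B :=
      mem_inf.mpr ⟨mem_subgroupOf.mp (mem_inf.mp hx).1, mem_subgroupOf.mp (mem_inf.mp hx).2⟩
    rw [hAB, mem_bot] at h1
    exact mem_bot.mpr (Subtype.ext h1)
  · rw [Set.eq_univ_iff_forall]
    intro m
    obtain ⟨a, ha, b, hb, hm⟩ := hmul m.1 m.2
    exact ⟨⟨a, hA ha⟩, mem_subgroupOf.mpr ha, ⟨b, hB hb⟩, mem_subgroupOf.mpr hb,
      Subtype.ext hm.symm⟩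

theorem isComplIn_of_isComplement' {A M : Subgroup G} (hA : A ≤ M) {K : Subgroup M}
    (h : IsComplement' (A.subgroupOf M) K) : Cfsg.IsComplIn A (K.map M.subtype) M := by
  refine ⟨hA, map_subtype_le _, ?_, ?_⟩
  · rw [eq_bot_iff]
    rintro x ⟨hxA, k, hk, rfl⟩
    have h1 : k ∈ A.subgroupOf M ⊓ K := mem_inf.mpr ⟨mem_subgroupOf.mpr hxA, hk⟩
    rw [h.disjoint.eq_bot, mem_bot] at h1
    rw [h1]
    exact one_mem _
  · intro m hm
    obtain ⟨⟨a, k⟩, hak, -⟩ := h.existsUnique ⟨m, hm⟩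
    exact ⟨a.1.1, mem_subgroupOf.mp a.2, k.1.1, ⟨k.1, k.2, rfl⟩,
      (congrArg (Subtype.val : ↥M → G) hak).symm⟩

theorem eq_commutator_of_isComplIn [Finite G] {N P V : Subgroup G} (hsol : Group.IsSolvable ↥N)
    (hPn : N ≤ normalizer (P : Set G)) (hcop : (Nat.card P).Coprime (P.relIndex N))
    (hV : Cfsg.IsComplIn P V N) (hle : P ≤ ⁅N, N⁆) : P = ⁅P, V⁆ := by
  have hPN := hV.1
  have hn : (P.subgroupOf N).Normal := (normal_subgroupOf_iff_le_normalizer hPN).mpr hPn
  have h1 : P.subgroupOf N ≤ commutator ↥N := by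
    rw [← map_le_map_iff_of_injective N.subtype_injective, map_subtype_commutator,
      map_subgroupOf_eq_of_le hPN]
    exact hle
  have h2 := ((Cfsg.Agent.S1459.result (G := ↥N)).1 (P.subgroupOf N) (V.subgroupOf N) hn
    (by rw [card_subgroupOf hPN]; exact hcop) (isComplement'_of_isComplIn hV) h1).1
  have h3 := congrArg (Subgroup.map N.subtype) h2
  rwa [map_commutator, map_subgroupOf_eq_of_le hPN, map_subgroupOf_eq_of_le hV.2.1] at h3

/-! ### B-G 10.7 -/

theorem isPGroup_ne_top [Finite G] (hG : Cfsg.IsMinSimpleOddOrder G) {p : ℕ} [Fact p.Prime]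
    {P : Subgroup G} (hP : IsPGroup p P) : P ≠ ⊤ := by
  rintro rfl
  have h1 : Group.IsNilpotent ↥(⊤ : Subgroup G) := hP.isNilpotent
  have h2 : Group.IsSolvable ↥(⊤ : Subgroup G) := inferInstance
  have hne : (⊤ : Subgroup G) ≠ ⊥ := by
    have := hG.2.1.toNontrivial
    exact top_ne_bot
  have h3 := commutator_lt_of_solvable h2 hne
  rw [← commutator_def, commutator_eq_top_of_minSimple hG] at h3
  exact lt_irrefl _ h3

theorem exists_coatom_of_sylow [Finite G] (hG : Cfsg.IsMinSimpleOddOrder G) {p : ℕ} [Fact p.Prime]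
    {P : Subgroup G} (hP : IsSylowIn p P ⊤) (hP1 : P ≠ ⊥) :
    ∃ M, IsCoatom M ∧ normalizer (P : Set G) ≤ M ∧ IsSylowIn p P M ∧ p ∈ Cfsg.sigma M := by
  obtain ⟨M, hM, hNM⟩ := exists_coatom_ge (normalizer_ne_top hG hP1 (isPGroup_ne_top hG hP.isPGroup))
  have hPM : IsSylowIn p P M := IsSylowIn_of_le hP (le_normalizer.trans hNM) le_top
  exact ⟨M, hM, hNM, hPM, mem_sigma_of_normalizer_le hPM hP1 hNM⟩

theorem isSylowIn_top_of_sylow [Finite G] {p : ℕ} [Fact p.Prime] (P : Sylow p G) :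
    IsSylowIn p (P : Subgroup G) ⊤ :=
  ⟨le_top, P.2, by rw [relIndex_top_right]; exact P.not_dvd_index⟩

/-- B-G 10.7(a) (statement S1411), conditional. -/
theorem S1411_of [Finite G] (hG : Cfsg.IsMinSimpleOddOrder G) (hU : UT G) (hPL : T1410 G)
    (p : ℕ) [Fact p.Prime] (P : Sylow p G) (V : Subgroup G)
    (hV : Cfsg.IsComplIn (P : Subgroup G) V (Subgroup.normalizer ((P : Subgroup G) : Set G))) :
    (P : Subgroup G) = ⁅(P : Subgroup G), V⁆ ∧
      (P : Subgroup G) ≤ ⁅Subgroup.normalizer ((P : Subgroup G) : Set G),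
        Subgroup.normalizer ((P : Subgroup G) : Set G)⁆ := by
  by_cases hP1 : (P : Subgroup G) = ⊥
  · rw [hP1]
    exact ⟨(commutator_bot_left V).symm, bot_le⟩
  have hPt := isSylowIn_top_of_sylow P
  obtain ⟨M, hM, hNM, hPM, hσ⟩ := exists_coatom_of_sylow hG hPt hP1
  have h1 := sylow_le_commutator_of_mem_sigma hG hU hM hσ hPM
  have h2 := sylow_le_commutator_normalizer (solvable_of_ne_top hG hM.1) (hPL p M hM.1) hPM h1
  have h3 : (P : Subgroup G) ≤ ⁅Subgroup.normalizer ((P : Subgroup G) : Set G),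
      Subgroup.normalizer ((P : Subgroup G) : Set G)⁆ :=
    h2.trans (commutator_mono inf_le_right inf_le_right)
  refine ⟨?_, h3⟩
  have hNtop := normalizer_ne_top hG hP1 (isPGroup_ne_top hG P.2)
  have hPN : IsSylowIn p (P : Subgroup G) (normalizer ((P : Subgroup G) : Set G)) :=
    IsSylowIn_of_le hPt le_normalizer le_top
  obtain ⟨n, hn⟩ := IsPGroup.iff_card.mp P.2
  exact eq_commutator_of_isComplIn (solvable_of_ne_top hG hNtop) le_rfl
    (by
      rw [hn]
      exact Nat.Coprime.pow_left n ((Nat.Prime.coprime_iff_not_dvd Fact.out).mpr hPN.not_dvd))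
    hV h3

/-- B-G 10.7(c): `N_G(P)` controls fusion of subgroups of `P`. -/
theorem sylow_fusion [Finite G] (hG : Cfsg.IsMinSimpleOddOrder G) (hU : UT G) (hPL : T1410 G)
    {p : ℕ} [Fact p.Prime] {P : Subgroup G} (hP : IsSylowIn p P ⊤) {Q : Subgroup G} {x : G}
    (hQ : Q ≤ P) (hx : cj x Q ≤ P) : ∃ y ∈ normalizer (P : Set G), cj x Q = cj y Q := by
  by_cases hQ1 : Q = ⊥
  · subst hQ1
    exact ⟨1, one_mem _, by rw [cj, cj, Subgroup.map_bot, Subgroup.map_bot]⟩
  have hP1 : P ≠ ⊥ := fun h => hQ1 (le_bot_iff.mp (h ▸ hQ))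
  obtain ⟨M, hM, hNM, hPM, hσ⟩ := exists_coatom_of_sylow hG hP hP1
  obtain ⟨m, hm, c, hc, rfl⟩ := ctl_of_mem_sigma hG hU hM hσ (hP.isPGroup.to_le hQ) hQ1
    (hQ.trans hPM.le) x (hx.trans hPM.le)
  have e : cj (m * c) Q = cj m Q := by
    rw [cj_mul, cj_eq_of_mem_normalizer (centralizer_le_normalizer' Q hc)]
  rw [e] at hx ⊢
  obtain ⟨g, hg, hgQ⟩ := fusion_of_pLength_one (solvable_of_ne_top hG hM.1) (hPL p M hM.1) hPM hQ
    hm hx
  exact ⟨g, (mem_inf.mp hg).2, hgQ⟩

theorem exists_le_cj_of_isPGroup [Finite G] {p : ℕ} [Fact p.Prime] {P R : Subgroup G}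
    (hP : IsSylowIn p P ⊤) (hR : IsPGroup p R) : ∃ g : G, R ≤ cj g P := by
  obtain ⟨S, hS, hRS⟩ := exists_isSylowIn_ge (K := ⊤) le_top hR
  obtain ⟨g, -, rfl⟩ := hP.conj hS
  exact ⟨g, hRS⟩

/-- B-G 10.7(c,d,e) (statement S1413), conditional. -/
theorem S1413_of [Finite G] (hG : Cfsg.IsMinSimpleOddOrder G) (hU : UT G) (hPL : T1410 G)
    (p : ℕ) [Fact p.Prime] (P : Sylow p G) :
    (∀ (Q : Subgroup G) (x : G), Q ≤ (P : Subgroup G) → Q.map (MulAut.conj x).toMonoidHom ≤ (P : Subgroup G) →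
        ∃ y ∈ Subgroup.normalizer ((P : Subgroup G) : Set G), Q.map (MulAut.conj x).toMonoidHom = Q.map (MulAut.conj y).toMonoidHom) ∧
      (∀ Q : Subgroup G, Q ≤ (P : Subgroup G) →
        ¬ p ∣ ((P : Subgroup G) ⊓ Subgroup.normalizer (Q : Set G)).relIndex (Subgroup.normalizer (Q : Set G))) ∧
      (∀ (R Q : Subgroup G), IsPGroup p R → Q ≤ (P : Subgroup G) ⊓ R →
        Subgroup.normalizer ((P : Subgroup G) : Set G) ≤ Subgroup.normalizer (Q : Set G) →
        Subgroup.normalizer (R : Set G) ≤ Subgroup.normalizer (Q : Set G)) := by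
  have hPt := isSylowIn_top_of_sylow P
  refine ⟨fun Q x hQ hx => sylow_fusion hG hU hPL hPt hQ hx, ?_, ?_⟩
  · intro Q hQ
    obtain ⟨R, hR, hle⟩ := exists_isSylowIn_ge (K := normalizer (Q : Set G))
      (U := (P : Subgroup G) ⊓ normalizer (Q : Set G)) inf_le_right (P.2.to_le inf_le_left)
    obtain ⟨g, hg⟩ := exists_le_cj_of_isPGroup hPt hR.isPGroup
    have hQR : Q ≤ R := (le_inf hQ le_normalizer).trans hle
    have h1 : cj g⁻¹ Q ≤ (P : Subgroup G) := by
      rw [cj_le_iff, inv_inv]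
      exact hQR.trans hg
    obtain ⟨y, hy, hyQ⟩ := sylow_fusion hG hU hPL hPt hQ h1
    have hz : g * y ∈ normalizer (Q : Set G) := by
      apply mem_normalizer_of_cj_eq
      rw [cj_mul, ← hyQ, cj_cj_inv]
    have h2 : cj (g * y) (P : Subgroup G) = cj g (P : Subgroup G) := by
      rw [cj_mul, cj_eq_of_mem_normalizer hy]
    have h3 : R ≤ cj (g * y) ((P : Subgroup G) ⊓ normalizer (Q : Set G)) := by
      rw [cj_inf, h2, cj_eq_of_mem hz]
      exact le_inf hg hR.le
    have h4 : Nat.card R ≤ Nat.card ↥((P : Subgroup G) ⊓ normalizer (Q : Set G)) := by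
      rw [← card_cj (g * y) ((P : Subgroup G) ⊓ normalizer (Q : Set G))]
      exact card_le_of_le h3
    have h5 : (P : Subgroup G) ⊓ normalizer (Q : Set G) = R := eq_of_le_of_card_ge hle h4
    rw [h5]
    exact hR.not_dvd
  · intro R Q hR hQ hN
    have hQP : Q ≤ (P : Subgroup G) := hQ.trans inf_le_left
    have hQR : Q ≤ R := hQ.trans inf_le_right
    have key : ∀ g : G, cj g Q ≤ (P : Subgroup G) → g ∈ normalizer (Q : Set G) := by
      intro g hg
      obtain ⟨y, hy, hyQ⟩ := sylow_fusion hG hU hPL hPt hQP hg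
      apply mem_normalizer_of_cj_eq
      rw [hyQ, cj_eq_of_mem_normalizer (hN hy)]
    obtain ⟨h, hh⟩ := exists_le_cj_of_isPGroup hPt hR
    have h1 : h⁻¹ ∈ normalizer (Q : Set G) := by
      apply key
      rw [cj_le_iff, inv_inv]
      exact hQR.trans hh
    intro n hn
    have h2 : h⁻¹ * n ∈ normalizer (Q : Set G) := by
      apply key
      rw [cj_mul, cj_le_iff, inv_inv]
      calc cj n Q ≤ cj n R := cj_mono n hQR
        _ = R := cj_eq_of_mem_normalizer hn
        _ ≤ cj h (P : Subgroup G) := hh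
    have h3 : n = h⁻¹⁻¹ * (h⁻¹ * n) := by group
    rw [h3]
    exact mul_mem (inv_mem h1) h2

/-! ### B-G 10.7(b) -/

theorem commutator_eq_center_of_card_cube {T : Type*} [Group T] {p : ℕ} [hp : Fact p.Prime]
    (hc : Nat.card T = p ^ 3) (hna : ¬ IsMulCommutative T) : commutator T = center T := by
  have hfin : Finite T := Nat.finite_of_card_ne_zero (by rw [hc]; exact pow_ne_zero _ hp.out.ne_zero)
  have hT : IsPGroup p T := IsPGroup.of_card hc
  have hnt : Nontrivial T := by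
    rw [← Finite.one_lt_card_iff_nontrivial, hc]
    exact Nat.one_lt_pow (by norm_num) hp.out.one_lt
  have hZ1 : Nontrivial (center T) := hT.center_nontrivial
  obtain ⟨k, hk3, hk⟩ := (Nat.dvd_prime_pow hp.out).mp (hc ▸ card_subgroup_dvd_card (center T))
  have hq : Nat.card (T ⧸ center T) = p ^ (3 - k) := by
    have h1 : Nat.card (center T) * (center T).index = p ^ k * p ^ (3 - k) := by
      rw [card_mul_index, hc, ← pow_add]
      congr 1
      omega
    rw [hk] at h1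
    rw [← index_eq_card]
    exact Nat.eq_of_mul_eq_mul_left (pow_pos hp.out.pos k) h1
  have hk0 : k ≠ 0 := by
    rintro rfl
    rw [pow_zero] at hk
    have := Finite.one_lt_card_iff_nontrivial.mpr hZ1
    omega
  have hk3' : k ≠ 3 := by
    rintro rfl
    apply hna
    have htop : center T = ⊤ := eq_top_of_card_eq _ (by rw [hk, hc])
    refine ⟨⟨fun a b => ?_⟩⟩
    have hb : b ∈ center T := htop ▸ mem_top b
    exact mem_center_iff.mp hb a
  have hk2 : k ≠ 2 := by
    rintro rfl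
    apply hna
    have hcyc : IsCyclic (T ⧸ center T) := isCyclic_of_prime_card (p := p) (by rw [hq]; norm_num)
    exact MonoidHom.isMulCommutative_of_isCyclic_of_ker_le_center (QuotientGroup.mk' (center T))
      (by rw [QuotientGroup.ker_mk'])
  have hk1 : k = 1 := by omega
  subst hk1
  have hle : commutator T ≤ center T := by
    rw [commutator_def, commutator_le]
    intro a _ b _
    rw [← QuotientGroup.eq_one_iff, commutatorElement_def]
    have hcomm := (IsPGroup.isMulCommutative_of_card_eq_prime_sq (p := p) (G := T ⧸ center T)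
      (by rw [hq])).is_comm.comm
    have h1 : ((a * b * a⁻¹ * b⁻¹ : T) : T ⧸ center T)
        = (a : T ⧸ center T) * (b : T ⧸ center T) * (a : T ⧸ center T)⁻¹ * (b : T ⧸ center T)⁻¹ := rfl
    rw [h1, hcomm (a : T ⧸ center T) (b : T ⧸ center T)]
    group
  have hne : commutator T ≠ ⊥ := by
    intro h
    apply hna
    refine ⟨⟨fun a b => ?_⟩⟩
    have h1 : ⁅a, b⁆ ∈ commutator T := Subgroup.commutator_mem_commutator (mem_top a) (mem_top b)
    rw [h, mem_bot] at h1
    exact commutatorElement_eq_one_iff_mul_comm.mp h1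
  apply eq_of_le_of_card_ge hle
  rw [hk, pow_one]
  have h2 : Nat.card (commutator T) ∣ p := by
    have := card_dvd_of_le hle
    rwa [hk, pow_one] at this
  rcases (Nat.dvd_prime hp.out).mp h2 with h | h
  · exact absurd ((card_eq_one).mp h) hne
  · exact h.ge

theorem map_subtype_center (R : Subgroup G) :
    (center ↥R).map R.subtype = R ⊓ centralizer (R : Set G) := by
  ext x
  constructor
  · rintro ⟨z, hz, rfl⟩
    refine mem_inf.mpr ⟨z.2, mem_centralizer_iff.mpr ?_⟩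
    intro h hh
    exact congrArg (Subtype.val : ↥R → G) (mem_center_iff.mp hz ⟨h, hh⟩)
  · intro hx
    refine ⟨⟨x, (mem_inf.mp hx).1⟩, mem_center_iff.mpr ?_, rfl⟩
    intro g
    exact Subtype.ext (mem_centralizer_iff.mp (mem_inf.mp hx).2 g.1 g.2)

/-- the text of S1448 for the group `G`. -/
def T1448 (G : Type u) [Group G] : Prop :=
  ∀ (p : ℕ) [Fact p.Prime], p ≠ 2 → ∀ (R A : Subgroup G), IsPGroup p R → R ≠ ⊥ →
    Cfsg.PRankLE p 2 R → A ≤ Subgroup.normalizer (R : Set G) → (Nat.card A).Coprime p →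
    Odd (Nat.card A) → ⁅R, A⁆ = R →
    3 < p ∧ (IsMulCommutative R ∨ ∃ R₁ R₂ : Subgroup G, R₁ ⊔ R₂ = R ∧
      (∀ a ∈ R₁, ∀ b ∈ R₂, a * b = b * a) ∧
        ¬ IsMulCommutative R₁ ∧ Nat.card R₁ = p ^ 3 ∧ Monoid.exponent R₁ = p ∧ IsCyclic R₂ ∧
        Subgroup.closure {x : G | x ∈ R₂ ∧ x ^ p = 1} = ⁅R₁, R₁⁆)

/-- existence of a complement to a Sylow subgroup in its normalizer. -/
theorem exists_isComplIn_normalizer [Finite G] {p : ℕ} [Fact p.Prime] (P : Sylow p G) :
    ∃ V : Subgroup G, Cfsg.IsComplIn (P : Subgroup G) V (normalizer ((P : Subgroup G) : Set G)) ∧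
      (Nat.card V).Coprime p := by
  have hPN : IsSylowIn p (P : Subgroup G) (normalizer ((P : Subgroup G) : Set G)) :=
    IsSylowIn_of_le (isSylowIn_top_of_sylow P) le_normalizer le_top
  have hn : ((P : Subgroup G).subgroupOf (normalizer ((P : Subgroup G) : Set G))).Normal :=
    (normal_subgroupOf_iff_le_normalizer le_normalizer).mpr le_rfl
  obtain ⟨n, hn'⟩ := IsPGroup.iff_card.mp P.2
  have hc1 : (p).Coprime ((P : Subgroup G).subgroupOf (normalizer ((P : Subgroup G) : Set G))).index :=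
    (Nat.Prime.coprime_iff_not_dvd Fact.out).mpr hPN.not_dvd
  have hcop : (Nat.card ((P : Subgroup G).subgroupOf (normalizer ((P : Subgroup G) : Set G)))).Coprime
      ((P : Subgroup G).subgroupOf (normalizer ((P : Subgroup G) : Set G))).index := by
    rw [card_subgroupOf le_normalizer, hn']
    exact Nat.Coprime.pow_left n hc1
  obtain ⟨K, hK⟩ := exists_right_complement'_of_coprime hcop
  refine ⟨K.map (normalizer ((P : Subgroup G) : Set G)).subtype,
    isComplIn_of_isComplement' le_normalizer hK, ?_⟩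
  rw [card_map_of_injective (subtype_injective _), ← hK.symm.index_eq_card]
  exact hc1.symm

/-- B-G 10.7(b) (statement S1412), conditional. -/
theorem S1412_of [Finite G] (hG : Cfsg.IsMinSimpleOddOrder G) (hU : UT G) (hPL : T1410 G)
    (h48 : T1448 G) (p : ℕ) [Fact p.Prime] (P : Sylow p G)
    (hr : Cfsg.PRankLE p 2 (P : Subgroup G)) :
    IsMulCommutative (P : Subgroup G) ∨ ∃ P₁ P₂ : Subgroup G, P₁ ⊔ P₂ = (P : Subgroup G) ∧ (∀ a ∈ P₁, ∀ b ∈ P₂, a * b = b * a) ∧
        ¬ IsMulCommutative P₁ ∧ Nat.card P₁ = p ^ 3 ∧ Monoid.exponent P₁ = p ∧ IsCyclic P₂ ∧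
        Subgroup.closure {x : G | x ∈ P₂ ∧ x ^ p = 1} = P₁ ⊓ Subgroup.centralizer (P₁ : Set G) := by
  by_cases hP1 : (P : Subgroup G) = ⊥
  · left
    refine ⟨⟨fun a b => ?_⟩⟩
    have hall : ∀ x ∈ (P : Subgroup G), x = 1 := by
      intro x hx
      rwa [hP1, mem_bot] at hx
    have ha : (a : G) = 1 := hall _ a.2
    have hb : (b : G) = 1 := hall _ b.2
    apply Subtype.ext
    show (a : G) * (b : G) = (b : G) * (a : G)
    rw [ha, hb]
  obtain ⟨V, hV, hVp⟩ := exists_isComplIn_normalizer P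
  have h1 := (S1411_of hG hU hPL p P V hV).1
  have hp2 : p ≠ 2 := Cfsg.Agent.Lib.Helper58.BG9.ne_two_of_isPGroup hG P.2 hP1
  rcases (h48 p hp2 (P : Subgroup G) V P.2 hP1 hr hV.2.1 hVp
    (Cfsg.Agent.Lib.Helper58.BG9.odd_card_subgroup hG V) h1.symm).2 with h | h
  · exact Or.inl h
  · right
    obtain ⟨R₁, R₂, h1, h2, h3, h4, h5, h6, h7⟩ := h
    refine ⟨R₁, R₂, h1, h2, h3, h4, h5, h6, ?_⟩
    rw [h7, ← map_subtype_commutator, commutator_eq_center_of_card_cube h4 h3, map_subtype_center]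

end Cfsg.Agent.Lib.Helper68
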