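import Cfsg.Agent.Lib.Helper68.BG10C

/-!
Bender-Glauberman 10.2(b) (statement S1350), conditional on `UT G` and the text of S1405.
-/

set_option autoImplicit false

namespace Cfsg.Agent.Lib.Helper68

open Subgroup Cfsg.Agent.Lib.Helper30 Cfsg.Agent.Lib.Helper2
open scoped commutatorElement

universe u

variable {G : Type u} [Group G]

/-- a `p`-subgroup of a nilpotent normal subgroup lies in `O_p`. -/
theorem isPGroup_le_pCore_of_le_nilpotent_normal {Q : Type*} [Group Q] [Finite Q] {p : ℕ}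
    [Fact p.Prime] {D E : Subgroup Q} (hDn : D.Normal) (hD : Group.IsNilpotent ↥D) (hE : E ≤ D)
    (hEp : IsPGroup p E) : E ≤ Cfsg.pCore p Q := by
  obtain ⟨T, hT⟩ := (hEp.comap_subtype (K := D)).exists_le_sylow
  have hTn : (T : Subgroup D).Normal := inferInstance
  have hTc : (T : Subgroup D).Characteristic := T.characteristic_of_normal hTn
  have h1 : ((T : Subgroup D).map D.subtype).Normal :=
    Cfsg.Agent.Lib.Helper28.map_subtype_normal_of_characteristic hDn hTc
  have h2 : (T : Subgroup D).map D.subtype ≤ Cfsg.pCore p Q :=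
    Cfsg.Agent.Lib.Helper14.le_pCore h1 (T.2.map _)
  have h3 := Subgroup.map_mono (f := D.subtype) hT
  rw [show (E.comap D.subtype).map D.subtype = E from map_subgroupOf_eq_of_le hE] at h3
  exact h3.trans h2

/-- the part of the text of S1405 used for S1350. -/
def T1405n (G : Type u) [Group G] : Prop :=
  ∀ M : Subgroup G, IsCoatom M →
    Group.IsNilpotent ↥((commutator ↥M).map (QuotientGroup.mk' (Cfsg.piCore (Cfsg.alpha M) ↥M)))

theorem sylow_le_piCore_sigma [Finite G] (hG : Cfsg.IsMinSimpleOddOrder G) (hU : UT G)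
    (h5 : T1405n G) {M : Subgroup G} (hM : IsCoatom M) {p : ℕ} [hpp : Fact p.Prime]
    (hp : p ∈ Cfsg.sigma M) (S : Sylow p ↥M) :
    (S : Subgroup ↥M) ≤ Cfsg.piCore (Cfsg.sigma M) ↥M := by
  set A : Subgroup ↥M := Cfsg.piCore (Cfsg.alpha M) ↥M with hA
  have hS1 : (S : Subgroup ↥M) ≤ commutator ↥M := by
    rw [← map_le_map_iff_of_injective M.subtype_injective, map_subtype_commutator]
    exact sylow_le_commutator_of_mem_sigma hG hU hM hp (isSylowIn_of_sylow S)
  have hDn : ((commutator ↥M).map (QuotientGroup.mk' A)).Normal :=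
    Normal.map inferInstance _ (QuotientGroup.mk'_surjective A)
  have h1 : (S : Subgroup ↥M).map (QuotientGroup.mk' A) ≤ Cfsg.pCore p (↥M ⧸ A) :=
    isPGroup_le_pCore_of_le_nilpotent_normal hDn (h5 M hM) (Subgroup.map_mono hS1) (S.2.map _)
  have h2 : (S : Subgroup ↥M) ≤ (Cfsg.pCore p (↥M ⧸ A)).comap (QuotientGroup.mk' A) :=
    map_le_iff_le_comap.mp h1
  refine h2.trans (le_piCore (Normal.comap inferInstance _) ?_)
  have hle : A ≤ (Cfsg.pCore p (↥M ⧸ A)).comap (QuotientGroup.mk' A) :=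
    Cfsg.Agent.Lib.Helper14.le_comap_mk' A _
  rw [card_eq_card_mul_relIndex hle, Cfsg.Agent.Lib.Helper14.relIndex_comap_mk']
  apply PiNat.mul
  · intro q hq hqd
    exact mem_sigma_of_mem_alpha hG hU hM (piCore_isPi (Cfsg.alpha M) q hq hqd)
  · intro q hq hqd
    obtain ⟨k, hk⟩ := IsPGroup.iff_card.mp
      (Cfsg.Agent.Lib.Helper14.isPGroup_pCore (p := p) (G := ↥M ⧸ A))
    rw [hk] at hqd
    rw [(Nat.prime_dvd_prime_iff_eq hq hpp.out).mp (hq.dvd_of_dvd_pow hqd)]
    exact hp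

/-- B-G 10.2(b) (statement S1350), conditional. -/
theorem S1350_of [Finite G] (hG : Cfsg.IsMinSimpleOddOrder G) (hU : UT G) (h5 : T1405n G)
    (M : Subgroup G) (hM : IsCoatom M) :
    Cfsg.IsPiHallOf (Cfsg.sigma M) (Cfsg.sigmaCore M) M ∧ Cfsg.IsPiHall (Cfsg.sigma M) (Cfsg.sigmaCore M) ∧
      ∀ N : Subgroup G, M ≤ Subgroup.normalizer (N : Set G) → Cfsg.IsPiHallOf (Cfsg.sigma M) N M →
        N = Cfsg.sigmaCore M := by
  have hpi : PiNat (Cfsg.sigma M) (Nat.card (Cfsg.sigmaCore M)) := piCoreOf_isPi (Cfsg.sigma M) M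
  have hleM : Cfsg.sigmaCore M ≤ M := piCoreOf_le (Cfsg.sigma M) M
  have hrel : ∀ p : ℕ, p.Prime → p ∈ Cfsg.sigma M → ¬ p ∣ (Cfsg.sigmaCore M).relIndex M := by
    intro p hpp hp hd
    have : Fact p.Prime := ⟨hpp⟩
    obtain ⟨S⟩ : Nonempty (Sylow p ↥M) := inferInstance
    have h1 := sylow_le_piCore_sigma hG hU h5 hM hp S
    have h2 : (Cfsg.sigmaCore M).relIndex M = (Cfsg.piCore (Cfsg.sigma M) ↥M).index := by
      rw [Cfsg.sigmaCore, relIndex, subgroupOf, comap_map_eq_self_of_injective M.subtype_injective]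
    rw [h2] at hd
    exact S.not_dvd_index (hd.trans (index_dvd_of_le h1))
  refine ⟨⟨hleM, hpi, hrel⟩, ⟨hpi, ?_⟩, ?_⟩
  · intro p hpp hp hd
    have : Fact p.Prime := ⟨hpp⟩
    obtain ⟨S⟩ : Nonempty (Sylow p ↥M) := inferInstance
    have h1 := Subgroup.map_mono (f := M.subtype) (sylow_le_piCore_sigma hG hU h5 hM hp S)
    have hS := isSylowIn_of_sylow S
    have h2 := (isSylowIn_top_of_normalizer_le hS (normalizer_le_of_mem_sigma hp hS)).not_dvd
    rw [relIndex_top_right] at h2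
    exact h2 (hd.trans (index_dvd_of_le h1))
  · intro N hN hHall
    obtain ⟨hNM, hNpi, hNrel⟩ := hHall
    have hle : N ≤ Cfsg.sigmaCore M := le_piCoreOf hNM hN hNpi
    apply le_antisymm hle
    rw [← relIndex_eq_one]
    by_contra hne
    obtain ⟨q, hq, hqd⟩ := Nat.exists_prime_and_dvd hne
    have hqσ : q ∈ Cfsg.sigma M := hpi q hq (hqd.trans (relIndex_dvd_card _ _))
    apply hNrel q hq hqσ
    rw [← relIndex_mul_relIndex N (Cfsg.sigmaCore M) M hle hleM]
    exact Dvd.dvd.mul_right hqd _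

end Cfsg.Agent.Lib.Helper68
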