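import Cfsg.Agent.Lib.Helper68.BG10D
import Cfsg.Agent.Lib.Helper28.Cores
import Cfsg.Agent.S1451

/-!
Bender-Glauberman 10.2(a,c,d) (statement S1405), conditional on `UT G`.
-/

set_option autoImplicit false

namespace Cfsg.Agent.Lib.Helper68

open Subgroup Cfsg.Agent.Lib.Helper30 Cfsg.Agent.Lib.Helper2
open scoped commutatorElement

universe u

variable {G : Type u} [Group G]

/-- `O_p(X / O_π(X)) = 1` for `p ∈ π`. -/
theorem pCore_quotient_piCore_eq_bot {X : Type*} [Group X] [Finite X] {π : Set ℕ} {p : ℕ}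
    [hpp : Fact p.Prime] (hp : p ∈ π) : Cfsg.pCore p (X ⧸ Cfsg.piCore π X) = ⊥ := by
  set A := Cfsg.piCore π X with hA
  have hle : A ≤ (Cfsg.pCore p (X ⧸ A)).comap (QuotientGroup.mk' A) :=
    Cfsg.Agent.Lib.Helper14.le_comap_mk' A _
  have h1 : (Cfsg.pCore p (X ⧸ A)).comap (QuotientGroup.mk' A) ≤ A := by
    refine le_piCore (Normal.comap inferInstance _) ?_
    rw [card_eq_card_mul_relIndex hle, Cfsg.Agent.Lib.Helper14.relIndex_comap_mk']
    apply PiNat.mul (piCore_isPi π)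
    intro q hq hqd
    obtain ⟨k, hk⟩ := IsPGroup.iff_card.mp
      (Cfsg.Agent.Lib.Helper14.isPGroup_pCore (p := p) (G := X ⧸ A))
    rw [hk] at hqd
    rw [(Nat.prime_dvd_prime_iff_eq hq hpp.out).mp (hq.dvd_of_dvd_pow hqd)]
    exact hp
  have h2 := Subgroup.map_mono (f := QuotientGroup.mk' A) h1
  rw [map_comap_eq_self_of_surjective (QuotientGroup.mk'_surjective A),
    QuotientGroup.map_mk'_self] at h2
  exact le_bot_iff.mp h2

theorem card_le_of_elementary_bot {Q : Type*} [Group Q] {E : Subgroup Q} (h : E ≤ ⊥) (n : ℕ)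
    (hn : 0 < n) : Nat.card E ≤ n := by
  rw [le_bot_iff.mp h, card_bot]
  exact hn

/-- B-G 10.2(a,c,d) (statement S1405), conditional. -/
theorem S1405_of [Finite G] (hG : Cfsg.IsMinSimpleOddOrder G) (hU : UT G)
    (M : Subgroup G) (hM : IsCoatom M) :
    Cfsg.IsPiHallOf (Cfsg.alpha M) (Cfsg.alphaCore M) M ∧ Cfsg.IsPiHall (Cfsg.alpha M) (Cfsg.alphaCore M) ∧
      Cfsg.alphaCore M ≤ Cfsg.sigmaCore M ∧ Cfsg.RankLE 2 (↥M ⧸ Cfsg.piCore (Cfsg.alpha M) ↥M) ∧
      Group.IsNilpotent ↥((commutator ↥M).map (QuotientGroup.mk' (Cfsg.piCore (Cfsg.alpha M) ↥M))) := by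
  have hsol : Group.IsSolvable ↥M := solvable_of_ne_top hG hM.1
  have hodd : Odd (Nat.card ↥M) := Cfsg.Agent.Lib.Helper58.BG9.odd_card_subgroup hG M
  set A : Subgroup ↥M := Cfsg.piCore (Cfsg.alpha M) ↥M with hA
  have hApi : PiNat (Cfsg.alpha M) (Nat.card A) := piCore_isPi (Cfsg.alpha M)
  have hQodd : Odd (Nat.card (↥M ⧸ A)) := by
    rw [← index_eq_card]
    exact Odd.of_dvd_nat hodd (index_dvd_card A)
  -- rank of the quotient at primes outside `α(M)`
  have hrk : ∀ q : ℕ, q.Prime → q ∉ Cfsg.alpha M → Cfsg.PRankLE q 2 (↥M ⧸ A) := by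
    intro q hq hqα
    have : Fact q.Prime := ⟨hq⟩
    apply Cfsg.Agent.Lib.Helper3.pRankLE_quotient_of_coprime A
    · exact ((Nat.Prime.coprime_iff_not_dvd hq).mpr (fun h => hqα (hApi q hq h))).symm
    · by_contra h
      exact hqα ⟨hq, h⟩
  have hF : Cfsg.RankLE 2 ↥(Cfsg.fittingSubgroup (↥M ⧸ A)) := by
    intro q hq
    have : Fact q.Prime := ⟨hq⟩
    by_cases hqα : q ∈ Cfsg.alpha M
    · by_contra hcon
      obtain ⟨E, hEF, hE, hcard⟩ := exists_elementary_of_not_pRankLE hcon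
      have h1 : E ≤ Cfsg.pCore q (↥M ⧸ A) :=
        isPGroup_le_pCore_of_le_nilpotent_normal Cfsg.Agent.Lib.Helper28.fitting_normal
          Cfsg.Agent.Lib.Helper28.fitting_isNilpotent hEF (ea_isPGroup hE)
      rw [pCore_quotient_piCore_eq_bot hqα] at h1
      exact absurd (card_le_of_elementary_bot h1 (q ^ 2) (pow_pos hq.pos 2)) (not_le.mpr hcard)
    · exact Cfsg.Agent.Lib.Helper26.PRankLE_of_injective (Subgroup.subtype _)
        (subtype_injective _) (hrk q hq hqα)
  have hnil : Group.IsNilpotent ↥(commutator (↥M ⧸ A)) :=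
    (Cfsg.Agent.S1451.result hQodd (Or.inr hF)).1
  have hmap : (commutator ↥M).map (QuotientGroup.mk' A) = commutator (↥M ⧸ A) := by
    rw [commutator_def, map_commutator, map_top_of_surjective _ (QuotientGroup.mk'_surjective A),
      ← commutator_def]
  have hsyl : ∀ (p : ℕ) [Fact p.Prime], p ∈ Cfsg.alpha M → ∀ S : Sylow p ↥M,
      (S : Subgroup ↥M) ≤ A := by
    intro p _ hp S
    have hS1 : (S : Subgroup ↥M) ≤ commutator ↥M := by
      rw [← map_le_map_iff_of_injective M.subtype_injective, map_subtype_commutator]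
      exact sylow_le_commutator_of_mem_sigma hG hU hM (mem_sigma_of_mem_alpha hG hU hM hp)
        (isSylowIn_of_sylow S)
    have h1 : (S : Subgroup ↥M).map (QuotientGroup.mk' A) ≤ Cfsg.pCore p (↥M ⧸ A) :=
      isPGroup_le_pCore_of_le_nilpotent_normal (D := commutator (↥M ⧸ A)) inferInstance hnil
        (hmap ▸ Subgroup.map_mono hS1) (S.2.map _)
    rw [pCore_quotient_piCore_eq_bot hp, le_bot_iff, Subgroup.map_eq_bot_iff,
      QuotientGroup.ker_mk'] at h1
    exact h1
  have hcard : Nat.card (Cfsg.alphaCore M) = Nat.card A := by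
    rw [Cfsg.alphaCore, card_map_of_injective M.subtype_injective]
  have hpi : ∀ p : ℕ, p.Prime → p ∣ Nat.card (Cfsg.alphaCore M) → p ∈ Cfsg.alpha M := by
    intro p hp hd
    rw [hcard] at hd
    exact hApi p hp hd
  have hidx : ∀ p : ℕ, p.Prime → p ∈ Cfsg.alpha M → ¬ p ∣ A.index := by
    intro p hpp hp hd
    have : Fact p.Prime := ⟨hpp⟩
    obtain ⟨S⟩ : Nonempty (Sylow p ↥M) := inferInstance
    exact S.not_dvd_index (hd.trans (index_dvd_of_le (hsyl p hp S)))
  refine ⟨⟨map_subtype_le _, hpi, ?_⟩, ⟨hpi, ?_⟩, ?_, ?_, ?_⟩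
  · intro p hpp hp
    have h2 : (Cfsg.alphaCore M).relIndex M = A.index := by
      rw [Cfsg.alphaCore, relIndex, subgroupOf, comap_map_eq_self_of_injective M.subtype_injective]
    rw [h2]
    exact hidx p hpp hp
  · intro p hpp hp hd
    have : Fact p.Prime := ⟨hpp⟩
    obtain ⟨S⟩ : Nonempty (Sylow p ↥M) := inferInstance
    have h1 := Subgroup.map_mono (f := M.subtype) (hsyl p hp S)
    have hS := isSylowIn_of_sylow S
    have h2 := (isSylowIn_top_of_normalizer_le hS
      (normalizer_le_of_mem_sigma (mem_sigma_of_mem_alpha hG hU hM hp) hS)).not_dvd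
    rw [relIndex_top_right] at h2
    exact h2 (hd.trans (index_dvd_of_le h1))
  · exact le_piCoreOf (piCoreOf_le (Cfsg.alpha M) M) (le_normalizer_piCoreOf (Cfsg.alpha M) M)
      (fun q hq hqd => mem_sigma_of_mem_alpha hG hU hM (hpi q hq hqd))
  · intro q hq
    by_cases hqα : q ∈ Cfsg.alpha M
    · intro B hBc hBq
      have : Fact q.Prime := ⟨hq⟩
      have hBp : IsPGroup q B := ea_isPGroup ⟨hBc, hBq⟩
      obtain ⟨k, hk⟩ := IsPGroup.iff_card.mp hBp
      have hk0 : k = 0 := by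
        by_contra hne
        apply hidx q hq hqα
        rw [index_eq_card]
        exact (dvd_pow_self q hne).trans (hk ▸ card_subgroup_dvd_card B)
      rw [hk, hk0, pow_zero]
      exact Nat.one_le_pow _ _ hq.pos
    · exact hrk q hq hqα
  · rw [hmap]
    exact hnil

end Cfsg.Agent.Lib.Helper68
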