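import Cfsg.Agent.Lib.Helper68.BG10C
import Cfsg.Agent.Lib.Helper2.BG96A
import Cfsg.Agent.Lib.Helper58.BG9e
import Cfsg.Agent.S1398

/-!
Bender-Glauberman 10.4 (statement S1407), conditional on `UT G` and the text of S1406.
-/

set_option autoImplicit false

namespace Cfsg.Agent.Lib.Helper68

open Subgroup Cfsg.Agent.Lib.Helper30 Cfsg.Agent.Lib.Helper2
open scoped commutatorElement

universe u

variable {G : Type u} [Group G]

/-- the text of S1406. -/
def T1406 (G : Type u) [Group G] : Prop :=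
  ∀ M : Subgroup G, IsCoatom M → ∀ X : Subgroup G, X ≤ M →
    (∀ p : ℕ, p.Prime → p ∣ Nat.card X → p ∉ Cfsg.alpha M) →
    ¬ Cfsg.RankLE 1 ↥(Cfsg.alphaCore M ⊓ Subgroup.centralizer (X : Set G)) →
    Cfsg.InUniqueMaximal (M ⊓ Subgroup.centralizer (X : Set G))

theorem centralizer_zpowers_eq (x : G) :
    centralizer ((zpowers x : Subgroup G) : Set G) = centralizer ({x} : Set G) := by
  apply le_antisymm
  · exact centralizer_le (by
      intro y hy
      rw [Set.mem_singleton_iff] at hy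
      rw [hy]
      exact mem_zpowers x)
  · intro c hc
    rw [mem_centralizer_singleton_iff] at hc
    rw [mem_centralizer_iff]
    intro y hy
    obtain ⟨k, rfl⟩ := mem_zpowers_iff.mp hy
    exact ((show Commute c x from hc).zpow_right k).eq.symm

/-- `Ω₁(Z(P)) ≠ 1` for a nontrivial `p`-group. -/
theorem omZ_ne_bot [Finite G] {p : ℕ} [hp : Fact p.Prime] {P : Subgroup G} (hP : IsPGroup p P)
    (hP1 : P ≠ ⊥) : BG96.omZ p P ≠ ⊥ := by
  obtain ⟨y, hyP, hy1, hyC⟩ := BG96.exists_central_of_pgroup hP hP1 hP le_normalizer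
  obtain ⟨k, hk⟩ := (IsPGroup.iff_orderOf.mp hP) ⟨y, hyP⟩
  rw [Subgroup.orderOf_mk] at hk
  have hk0 : k ≠ 0 := by
    rintro rfl
    rw [pow_zero, orderOf_eq_one_iff] at hk
    exact hy1 hk
  obtain ⟨j, rfl⟩ := Nat.exists_eq_succ_of_ne_zero hk0
  intro hbot
  have hmem : y ^ (p ^ j) ∈ BG96.omZ p P := by
    refine BG96.mem_omZ.mpr ⟨pow_mem hyP _, pow_mem hyC _, ?_⟩
    rw [← pow_mul, ← pow_succ, ← hk]
    exact pow_orderOf_eq_one y
  rw [hbot, mem_bot] at hmem
  have h1 := orderOf_dvd_of_pow_eq_one hmem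
  rw [hk] at h1
  have h2 := Nat.le_of_dvd (pow_pos hp.out.pos j) h1
  exact absurd h2 (not_le.mpr (Nat.pow_lt_pow_right hp.out.one_lt (Nat.lt_succ_self j)))

/-- a subgroup of odd order all of whose ranks are at most one is a Z-group. -/
theorem isZGroup_of_rankLE_one [Finite G] {Y : Subgroup G} (hodd : Odd (Nat.card Y))
    (h : Cfsg.RankLE 1 ↥Y) : IsZGroup ↥Y := by
  refine ⟨fun q hq S => ?_⟩
  have : Fact q.Prime := ⟨hq⟩
  by_contra hnc
  have hS := isSylowIn_of_sylow S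
  have hnc' : ¬ IsCyclic ↥((S : Subgroup Y).map Y.subtype) := by
    intro hc
    apply hnc
    exact isCyclic_of_injective ((Y.subtype.subgroupMap (S : Subgroup Y)))
      (by
        intro a b hab
        have h1 := congrArg (Subtype.val) hab
        exact Subtype.ext (Subtype.ext h1))
  have hq2 : q ≠ 2 := by
    rintro rfl
    by_cases hS1 : (S : Subgroup Y).map Y.subtype = ⊥
    · apply hnc'
      rw [hS1]
      infer_instance
    · have h1 := (dvd_card_of_isPGroup_ne_bot hS.isPGroup hS1).trans (card_dvd_of_le hS.le)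
      exact (Nat.not_even_iff_odd.mpr hodd) (even_iff_two_dvd.mpr h1)
  obtain ⟨D, hDS, -, hD, hDc⟩ := Cfsg.Agent.Lib.Helper58.BG9.exists_normal_sq hq2 hS.isPGroup hnc'
  exact Cfsg.Agent.Lib.Helper58.BG9.not_rankLE_one_of_elementary (hDS.trans hS.le) hD hDc.ge h

/-- B-G 10.4 (statement S1407), conditional. -/
theorem S1407_of [Finite G] (hG : Cfsg.IsMinSimpleOddOrder G) (hU : UT G) (h6 : T1406 G)
    (M : Subgroup G) (hM : IsCoatom M) (p : ℕ) [hpp : Fact p.Prime]
    (hpM : p ∣ Nat.card M) (hp : p ∉ Cfsg.sigma M) (P : Sylow p M) :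
    ∃ x : G, x ∈ ((Subgroup.center ↥(P : Subgroup M)).map (P : Subgroup M).subtype).map M.subtype ∧ orderOf x = p ∧
        IsZGroup ↥(Cfsg.alphaCore M ⊓ Subgroup.centralizer ({x} : Set G)) ∧
        ¬ (Subgroup.centralizer ({x} : Set G) ≤ M ∧ ∀ L : Subgroup G, IsCoatom L → Subgroup.centralizer ({x} : Set G) ≤ L → L = M) := by
  set Pg : Subgroup G := (P : Subgroup M).map M.subtype with hPg
  have hP : IsSylowIn p Pg M := isSylowIn_of_sylow P
  have hP1 : Pg ≠ ⊥ := by
    intro h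
    apply hP.not_dvd
    rw [h, relIndex_bot_left]
    exact hpM
  have hNP : ¬ normalizer (Pg : Set G) ≤ M := fun h => hp (mem_sigma_of_normalizer_le hP hP1 h)
  set Z0 := BG96.omZ p Pg with hZ0
  have hZ1 : Z0 ≠ ⊥ := omZ_ne_bot hP.isPGroup hP1
  have hZM : Z0 ≤ M := (BG96.omZ_le p Pg).trans hP.le
  have hZe : Cfsg.IsElementaryAbelian p Z0 := BG96.omZ_ea p Pg
  have hZtop : Z0 ≠ ⊤ := isPGroup_ne_top hG (ea_isPGroup hZe)
  have hNZ : ¬ normalizer (Z0 : Set G) ≤ M :=
    fun h => hNP ((BG96.normalizer_le_normalizer_omZ p Pg).trans h)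
  have hNZtop : normalizer (Z0 : Set G) ≠ ⊤ := normalizer_ne_top hG hZ1 hZtop
  have hex : ∃ x ∈ Z0, x ≠ 1 ∧ ¬ (Subgroup.centralizer ({x} : Set G) ≤ M ∧
      ∀ L : Subgroup G, IsCoatom L → Subgroup.centralizer ({x} : Set G) ≤ L → L = M) := by
    by_contra hcon
    push Not at hcon
    by_cases hcyc : IsCyclic Z0
    · obtain ⟨g, hg⟩ := hcyc.exists_generator
      have hg1 : (g : G) ≠ 1 := by
        intro h
        apply hZ1
        rw [eq_bot_iff]
        intro z hz
        obtain ⟨k, hk⟩ := mem_zpowers_iff.mp (hg ⟨z, hz⟩)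
        have h2 : ((g ^ k : ↥Z0) : G) = z := congrArg (Subtype.val) hk
        rw [mem_bot, ← h2]
        simp [h]
      obtain ⟨L, hL, hNL⟩ := exists_coatom_ge hNZtop
      have hCle : centralizer ({(g : G)} : Set G) ≤ normalizer (Z0 : Set G) := by
        refine le_trans ?_ (centralizer_le_normalizer' Z0)
        rw [← centralizer_zpowers_eq]
        apply centralizer_le
        intro z hz
        obtain ⟨k, hk⟩ := mem_zpowers_iff.mp (hg ⟨z, hz⟩)
        have h2 := congrArg (Subtype.val) hk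
        exact mem_zpowers_iff.mpr ⟨k, by simpa using h2⟩
      have := (hcon g g.2 hg1).2 L hL (hCle.trans hNL)
      exact hNZ (this ▸ hNL)
    · have hu := Cfsg.Agent.S1398.result hG M hM p Z0 hZM hZe hcyc
        (Or.inl (fun b hb hb1 => (hcon b hb hb1).1))
      exact hNZ (uniq_le hu hM hZM le_normalizer hNZtop)
  obtain ⟨x, hxZ, hx1, hxn⟩ := hex
  obtain ⟨hxP, hxC, hxp⟩ := BG96.mem_omZ.mp hxZ
  refine ⟨x, ?_, orderOf_eq_prime hxp hx1, ?_, hxn⟩
  · obtain ⟨m, hm, rfl⟩ := hxP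
    refine ⟨m, ⟨⟨m, hm⟩, ?_, rfl⟩, rfl⟩
    apply mem_center_iff.mpr
    intro g
    apply Subtype.ext
    apply Subtype.ext
    exact mem_centralizer_iff.mp hxC (g : M) ⟨(g : M), g.2, rfl⟩
  · by_contra hnZ
    have hr : ¬ Cfsg.RankLE 1 ↥(Cfsg.alphaCore M ⊓ centralizer ({x} : Set G)) :=
      fun h => hnZ (isZGroup_of_rankLE_one (Cfsg.Agent.Lib.Helper58.BG9.odd_card_subgroup hG _) h)
    rw [← centralizer_zpowers_eq] at hr
    have hxM : zpowers x ≤ M := zpowers_le.mpr (hP.le hxP)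
    have hu := h6 M hM (zpowers x) hxM (by
      intro q hq hqd hqα
      rw [Nat.card_zpowers, orderOf_eq_prime hxp hx1] at hqd
      rw [(Nat.prime_dvd_prime_iff_eq hq hpp.out).mp hqd] at hqα
      exact hp (mem_sigma_of_mem_alpha hG hU hM hqα)) hr
    rw [centralizer_zpowers_eq] at hu
    apply hxn
    refine ⟨uniq_le hu hM inf_le_left inf_le_right (centralizer_singleton_ne_top hG hx1), ?_⟩
    intro L hL hCL
    exact uniq_eq hu hM inf_le_left hL (inf_le_right.trans hCL)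

end Cfsg.Agent.Lib.Helper68
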