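import Cfsg.Agent.Lib.Helper68.BG10D
import Cfsg.Agent.Lib.Helper29.Cores

/-!
Bender-Glauberman section 16: easy corollaries of the texts of sections 10-15.
-/

set_option autoImplicit false

namespace Cfsg.Agent.Lib.Helper68

open Subgroup Cfsg.Agent.Lib.Helper30 Cfsg.Agent.Lib.Helper2
open scoped commutatorElement

universe u

variable {G : Type u} [Group G]

theorem IsComplIn.symm' {A B M : Subgroup G} (h : Cfsg.IsComplIn A B M) : Cfsg.IsComplIn B A M := by
  obtain ⟨hA, hB, hAB, hmul⟩ := h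
  refine ⟨hB, hA, by rw [inf_comm]; exact hAB, ?_⟩
  intro m hm
  obtain ⟨a, ha, b, hb, h1⟩ := hmul m⁻¹ (inv_mem hm)
  refine ⟨b⁻¹, inv_mem hb, a⁻¹, inv_mem ha, ?_⟩
  rw [← mul_inv_rev, ← h1, inv_inv]

/-- a normal Hall subgroup of `M` has a complement in `M`. -/
theorem exists_isComplIn_of_hall [Finite G] {π : Set ℕ} {N M : Subgroup G}
    (hN : Cfsg.IsPiHallOf π N M) (hn : M ≤ normalizer (N : Set G)) :
    ∃ E : Subgroup G, Cfsg.IsComplIn E N M := by
  obtain ⟨hNM, hpi, hidx⟩ := hN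
  have hnorm : (N.subgroupOf M).Normal := (normal_subgroupOf_iff_le_normalizer hNM).mpr hn
  have hcop : (Nat.card (N.subgroupOf M)).Coprime (N.subgroupOf M).index := by
    rw [card_subgroupOf hNM]
    apply Nat.coprime_of_dvd
    intro k hk hk1 hk2
    exact hidx k hk (hpi k hk hk1) hk2
  obtain ⟨K, hK⟩ := exists_right_complement'_of_coprime hcop
  exact ⟨_, IsComplIn.symm' (isComplIn_of_isComplement' hNM hK)⟩

/-- the order of a complement of a subgroup containing the Hall subgroup `N` is a `π'`-number. -/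
theorem not_mem_of_dvd_card_compl [Finite G] {π : Set ℕ} {N M U W : Subgroup G}
    (hN : Cfsg.IsPiHallOf π N M) (hNW : N ≤ W) (hU : Cfsg.IsComplIn U W M) {q : ℕ} (hq : q.Prime)
    (hqU : q ∣ Nat.card U) : q ∉ π := by
  intro hqπ
  apply hN.2.2 q hq hqπ
  have h1 := Cfsg.Agent.Lib.Helper29.IsComplIn.card_mul hU
  have h2 := card_eq_card_mul_relIndex hN.1
  have h3 := card_eq_card_mul_relIndex hNW
  have h4 : Nat.card N * (Nat.card U * N.relIndex W) = Nat.card N * N.relIndex M := by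
    rw [← h2, ← h1, h3]; ring
  have h5 := Nat.eq_of_mul_eq_mul_left Nat.card_pos h4
  rw [← h5]
  exact Dvd.dvd.mul_right hqU _

/-- statement S1358 from the texts of S1350 and S1420. -/
theorem S1358_of [Finite G] (hG : Cfsg.IsMinSimpleOddOrder G) (hU : UT G)
    (M : Subgroup G) (hM : IsCoatom M)
    (h50 : Cfsg.IsPiHallOf (Cfsg.sigma M) (Cfsg.sigmaCore M) M)
    (h20 : ∀ E : Subgroup G, Cfsg.IsComplIn E (Cfsg.sigmaCore M) M → ∀ N : Subgroup G, N ≤ M →
      Group.IsNilpotent N → (∀ p : ℕ, p.Prime → p ∣ Nat.card N → p ∉ Cfsg.sigma M) →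
      IsMulCommutative N)
    (K U : Subgroup G) (hKU : Cfsg.IsSigmaDecomposition M K U) :
    ∀ (p : ℕ), p.Prime → ∀ P : Sylow p U, IsMulCommutative (P : Subgroup U) ∧ Cfsg.PRankLE p 2 (P : Subgroup U) := by
  intro p hp P
  have : Fact p.Prime := ⟨hp⟩
  obtain ⟨E, hE⟩ := exists_isComplIn_of_hall h50 (le_normalizer_piCoreOf (Cfsg.sigma M) M)
  have hUM : U ≤ M := hKU.compl.1
  have hσ' : ∀ q : ℕ, q.Prime → q ∣ Nat.card U → q ∉ Cfsg.sigma M := fun q hq hqU =>
    not_mem_of_dvd_card_compl h50 le_sup_right hKU.compl hq hqU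
  set Pg : Subgroup G := (P : Subgroup U).map U.subtype with hPg
  have hPgU : Pg ≤ U := map_subtype_le _
  have hPgp : IsPGroup p Pg := P.2.map _
  have hcomm : IsMulCommutative Pg := h20 E hE Pg (hPgU.trans hUM) hPgp.isNilpotent
    (fun q hq hqd => hσ' q hq (hqd.trans (card_dvd_of_le hPgU)))
  constructor
  · refine ⟨⟨fun a b => ?_⟩⟩
    have h1 := hcomm.is_comm.comm ⟨(a : U), (a : U), a.2, rfl⟩ ⟨(b : U), (b : U), b.2, rfl⟩
    have h2 := congrArg (Subtype.val) h1
    exact Subtype.ext (Subtype.ext h2)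
  · by_cases hpU : p ∣ Nat.card U
    · have hr : Cfsg.PRankLE p 2 ↥M := by
        by_contra h
        exact hσ' p hp hpU (mem_sigma_of_mem_alpha hG hU hM ⟨hp, h⟩)
      exact Cfsg.Agent.Lib.Helper26.PRankLE_of_injective
        ((inclusion hUM).comp (Subgroup.subtype _))
        ((inclusion_injective hUM).comp (subtype_injective _)) hr
    · intro A _ _
      obtain ⟨k, hk⟩ := IsPGroup.iff_card.mp P.2
      have hk0 : k = 0 := by
        by_contra hne
        exact hpU ((dvd_pow_self p hne).trans (hk ▸ card_subgroup_dvd_card (P : Subgroup U)))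
      have h1 : Nat.card A ∣ Nat.card (P : Subgroup U) := card_subgroup_dvd_card A
      rw [hk, hk0, pow_zero, Nat.dvd_one] at h1
      rw [h1]
      exact Nat.one_le_pow _ _ hp.pos

end Cfsg.Agent.Lib.Helper68
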