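import Mathlib
import Cfsg.Agent.Lib.Helper70.FI.Defs
import Cfsg.Agent.Lib.Helper31.PGroup
import Cfsg.Agent.Lib.Helper59.UniqueOdd
import Cfsg.Agent.S3761

set_option autoImplicit false

namespace Cfsg.Agent.Lib.Helper68.FI
open Cfsg.Agent.Lib.Helper70.FI

theorem dich_core {R : Type*} [Group R] [Finite R] (h : IsPGroup 2 R) (E : Subgroup R) [hEn : E.Normal]
    (hE2 : ∀ x ∈ E, x * x = 1) (hE : 2 < Nat.card E) :
    ∃ a z : R, z ∈ Subgroup.center R ∧ z ≠ 1 ∧ z * z = 1 ∧ a * a = 1 ∧ a ≠ 1 ∧ a ≠ z ∧
      ∀ g : R, g * a * g⁻¹ = a ∨ g * a * g⁻¹ = a * z := by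
  have : Fact (Nat.Prime 2) := ⟨Nat.prime_two⟩
  have hEbot : E ≠ ⊥ := by
    rintro rfl
    rw [Subgroup.card_bot] at hE
    omega
  obtain ⟨z, hzE, hzc, hz1⟩ := Cfsg.Agent.Lib.Helper31.exists_mem_center_of_normal h E hEbot
  have hzz : z * z = 1 := hE2 z hzE
  have hzcomm : ∀ g : R, g * z = z * g := fun g => Subgroup.mem_center_iff.1 hzc g
  set Z := Subgroup.zpowers z with hZ
  have hZn : Z.Normal := by
    constructor
    intro w hw g
    obtain ⟨k, rfl⟩ := Subgroup.mem_zpowers_iff.1 hw
    have : g * z ^ k * g⁻¹ = z ^ k := by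
      have hc : Commute g (z ^ k) := (show Commute g z from hzcomm g).zpow_right k
      rw [hc.eq, mul_inv_cancel_right]
    rw [this]
    exact hw
  have hZmem : ∀ w ∈ Z, w = 1 ∨ w = z := by
    intro w hw
    obtain ⟨k, rfl⟩ := Subgroup.mem_zpowers_iff.1 hw
    rcases Int.even_or_odd' k with ⟨m, rfl | rfl⟩
    · left
      rw [zpow_mul, zpow_two, hzz, one_zpow]
    · right
      rw [zpow_add, zpow_mul, zpow_two, hzz, one_zpow, one_mul, zpow_one]
  have hZcard : Nat.card Z = 2 := by
    rw [hZ, Nat.card_zpowers]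
    exact orderOf_eq_prime (by rw [pow_two, hzz]) hz1
  have hEZ : ¬ E ≤ Z := by
    intro hle
    have := Subgroup.card_le_of_le hle
    omega
  obtain ⟨e, heE, heZ⟩ := SetLike.not_le_iff_exists.1 hEZ
  set N := E.map (QuotientGroup.mk' Z) with hN
  have hNn : N.Normal := hEn.map _ (QuotientGroup.mk'_surjective Z)
  have hNbot : N ≠ ⊥ := by
    intro hb
    have h1 : (QuotientGroup.mk' Z) e ∈ N := ⟨e, heE, rfl⟩
    rw [hb, Subgroup.mem_bot] at h1
    exact heZ ((QuotientGroup.eq_one_iff e).1 h1)
  obtain ⟨a', ha'N, ha'c, ha'1⟩ :=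
    Cfsg.Agent.Lib.Helper31.exists_mem_center_of_normal (h.to_quotient Z) N hNbot
  obtain ⟨a, haE, rfl⟩ := ha'N
  have haZ : a ∉ Z := fun hh => ha'1 ((QuotientGroup.eq_one_iff a).2 hh)
  refine ⟨a, z, hzc, hz1, hzz, hE2 a haE, ?_, ?_, ?_⟩
  · rintro rfl
    exact haZ Z.one_mem
  · rintro rfl
    exact haZ (Subgroup.mem_zpowers _)
  · intro g
    have h1 := Subgroup.mem_center_iff.1 ha'c (QuotientGroup.mk' Z g)
    rw [← map_mul, ← map_mul] at h1
    have h2 : (a * g)⁻¹ * (g * a) ∈ Z := by
      have h3 : ((a * g : R) : R ⧸ Z) = ((g * a : R) : R ⧸ Z) := h1.symm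
      exact QuotientGroup.eq.1 h3
    rcases hZmem _ h2 with h3 | h3
    · left
      have h4 : g * a = a * g := by
        have := congrArg (fun t => (a * g) * t) h3
        simpa [mul_assoc] using this
      rw [h4, mul_inv_cancel_right]
    · right
      have h4 : g * a = a * g * z := by
        have := congrArg (fun t => (a * g) * t) h3
        simpa [mul_assoc] using this
      rw [h4, mul_assoc a g z, hzcomm g, ← mul_assoc, mul_inv_cancel_right]

theorem dich_idx {R : Type*} [Group R] [Finite R] (u : R) :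
    b R ≤ 2 * (Subgroup.zpowers u).index := by
  have hle : Subgroup.zpowers (u * u) ≤ Sq R := by
    rw [Subgroup.zpowers_le]
    exact Subgroup.subset_closure ⟨u, rfl⟩
  have h1 : b R ≤ (Subgroup.zpowers (u * u)).index :=
    Nat.le_of_dvd (Nat.pos_of_ne_zero Subgroup.index_ne_zero_of_finite)
      (Subgroup.index_dvd_of_le hle)
  have hle2 : Subgroup.zpowers (u * u) ≤ Subgroup.zpowers u := by
    rw [Subgroup.zpowers_le]
    exact mul_mem (Subgroup.mem_zpowers u) (Subgroup.mem_zpowers u)
  have h2 := Subgroup.relIndex_mul_index hle2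
  have h3 : (Subgroup.zpowers (u * u)).relIndex (Subgroup.zpowers u) ≤ 2 := by
    have h4 : (Subgroup.zpowers (u * u)).relIndex (Subgroup.zpowers u)
        * Nat.card (Subgroup.zpowers (u * u)) = Nat.card (Subgroup.zpowers u) := by
      rw [Subgroup.relIndex, ← Nat.card_congr (Subgroup.subgroupOfEquivOfLe hle2).toEquiv]
      exact Subgroup.index_mul_card _
    rw [Nat.card_zpowers, Nat.card_zpowers, ← pow_two, orderOf_pow' u (by norm_num)] at h4
    set n := orderOf u with hn
    have hn0 : 0 < n := orderOf_pos u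
    have hg : Nat.gcd n 2 ∣ n := Nat.gcd_dvd_left n 2
    have hg2 : Nat.gcd n 2 ≤ 2 := Nat.le_of_dvd (by norm_num) (Nat.gcd_dvd_right n 2)
    obtain ⟨m, hm⟩ := hg
    have hg0 : 0 < Nat.gcd n 2 := Nat.gcd_pos_of_pos_right _ (by norm_num)
    have hm0 : 0 < m := by
      rcases Nat.eq_zero_or_pos m with h0 | h0
      · rw [h0, mul_zero] at hm; omega
      · exact h0
    have h5 : n / Nat.gcd n 2 = m := by
      conv_lhs => rw [hm]
      rw [hm.symm]
      exact Nat.div_eq_of_eq_mul_right hg0 hm
    rw [h5] at h4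
    have h6 : (Subgroup.zpowers (u * u)).relIndex (Subgroup.zpowers u) * m = Nat.gcd n 2 * m := by
      rw [← pow_two, h4]; exact hm
    have h7 := Nat.eq_of_mul_eq_mul_right hm0 h6
    omega
  calc b R ≤ (Subgroup.zpowers (u * u)).index := h1
    _ = (Subgroup.zpowers (u * u)).relIndex (Subgroup.zpowers u) * (Subgroup.zpowers u).index :=
        h2.symm
    _ ≤ 2 * (Subgroup.zpowers u).index := Nat.mul_le_mul_right _ h3

theorem dich {R : Type*} [Group R] [Finite R] (h : IsPGroup 2 R) :
    b R ≤ 4 ∨ ∃ a z : R, z ∈ Subgroup.center R ∧ z ≠ 1 ∧ z * z = 1 ∧ a * a = 1 ∧ a ≠ 1 ∧ a ≠ z ∧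
      ∀ g : R, g * a * g⁻¹ = a ∨ g * a * g⁻¹ = a * z := by
  have : Fact (Nat.Prime 2) := ⟨Nat.prime_two⟩
  obtain ⟨A, hAn, hAc, hCA⟩ := Cfsg.Agent.Lib.Helper31.exists_normal_abelian_self_centralizing h
  have hAcomm : ∀ x ∈ A, ∀ y ∈ A, x * y = y * x := by
    intro x hx y hy
    have := hAc.is_comm.comm (⟨x, hx⟩ : A) ⟨y, hy⟩
    exact congrArg Subtype.val this
  by_cases hcyc : IsCyclic A
  · obtain ⟨u, hu⟩ := (Subgroup.isCyclic_iff_exists_zpowers_eq_top A).1 hcyc
    by_cases hab : IsMulCommutative R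
    · left
      have hAtop : A = ⊤ := by
        rw [eq_top_iff]
        intro g _
        apply hCA
        rw [Subgroup.mem_centralizer_iff]
        intro x _
        exact hab.is_comm.comm x g
      have h1 := dich_idx u
      rw [hu, hAtop, Subgroup.index_top] at h1
      omega
    · obtain ⟨n, hn⟩ := IsPGroup.iff_card.1 (h.to_subgroup A)
      have hC : Subgroup.centralizer (A : Set R) = A := by
        apply le_antisymm hCA
        intro x hx
        rw [Subgroup.mem_centralizer_iff]
        intro y hy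
        exact hAcomm y hy x hx
      rcases Cfsg.Agent.S3761.result h hab A hcyc n hn hC with ⟨-, hcard, -⟩ | ⟨-, hea, hc4, hchar⟩
      · left
        have h1 := dich_idx u
        have h2 : A.index = 2 := by
          have h3 := A.card_mul_index
          rw [hn, hcard, pow_succ] at h3
          exact Nat.eq_of_mul_eq_mul_left (by positivity) h3
        rw [hu, h2] at h1
        omega
      · right
        have hnor := @Subgroup.normal_of_characteristic _ _ _ hchar
        refine @dich_core _ _ _ h _ hnor ?_ ?_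
        · intro x hx
          rw [← pow_two]
          exact hea.2 x hx
        · rw [hc4]; norm_num
  · right
    let E : Subgroup R :=
      { carrier := {x | x ∈ A ∧ x * x = 1}
        one_mem' := ⟨A.one_mem, by simp⟩
        mul_mem' := by
          rintro x y ⟨hx, hx2⟩ ⟨hy, hy2⟩
          refine ⟨A.mul_mem hx hy, ?_⟩
          calc x * y * (x * y) = x * (y * x) * y := by group
            _ = x * (x * y) * y := by rw [hAcomm y hy x hx]
            _ = (x * x) * (y * y) := by group
            _ = 1 := by rw [hx2, hy2, one_mul]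
        inv_mem' := by
          rintro x ⟨hx, hx2⟩
          refine ⟨A.inv_mem hx, ?_⟩
          rw [← mul_inv_rev, hx2, inv_one] }
    have hEn : E.Normal := by
      constructor
      rintro x ⟨hx, hx2⟩ g
      refine ⟨hAn.conj_mem x hx g, ?_⟩
      calc g * x * g⁻¹ * (g * x * g⁻¹) = g * (x * x) * g⁻¹ := by group
        _ = 1 := by rw [hx2]; group
    refine dich_core h E (fun x hx => hx.2) ?_
    by_contra hcard
    apply hcyc
    apply Cfsg.Agent.Lib.Helper59.isCyclic_of_unique_of_comm (h.to_subgroup A)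
    · intro x y hx hy
      have hxE : (x : R) ∈ E := by
        refine ⟨x.2, ?_⟩
        have := pow_orderOf_eq_one x
        rw [hx, pow_two] at this
        exact congrArg Subtype.val this
      have hyE : (y : R) ∈ E := by
        refine ⟨y.2, ?_⟩
        have := pow_orderOf_eq_one y
        rw [hy, pow_two] at this
        exact congrArg Subtype.val this
      have hle : Subgroup.zpowers (x : R) ≤ E := by
        rw [Subgroup.zpowers_le]; exact hxE
      have hc : Nat.card (Subgroup.zpowers (x : R)) = 2 := by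
        rw [Nat.card_zpowers, Subgroup.orderOf_coe, hx]
      have heq : Subgroup.zpowers (x : R) = E :=
        Subgroup.eq_of_le_of_card_ge hle (by omega)
      rw [← heq] at hyE
      obtain ⟨k, hk⟩ := Subgroup.mem_zpowers_iff.1 hyE
      rw [Subgroup.mem_zpowers_iff]
      exact ⟨k, Subtype.ext (by simpa using hk)⟩
    · intro x y
      exact hAc.is_comm.comm x y

end Cfsg.Agent.Lib.Helper68.FI
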