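import Mathlib
import Cfsg.Agent.Lib.Helper70.FI.Defs
import Cfsg.Agent.Lib.Helper68.FIDICH

set_option autoImplicit false

namespace Cfsg.Agent.Lib.Helper68.FI
open Cfsg.Agent.Lib.Helper70.FI

theorem prime_case {r : ℕ} (hr : r.Prime) {R V : Type*} [Group R] [CommGroup V]
    {φ : R →* MulAut V} (h : Cfg r R V φ) (hV : Nat.card V = r) :
    b R ≤ 2 ∧ Nat.card R ≤ r - 1 := by
  have := h.finR
  have := h.finV
  have hp : Fact (Nat.card V).Prime := ⟨hV.symm ▸ hr⟩
  have hcycV : IsCyclic V := isCyclic_of_prime_card (p := Nat.card V) rfl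
  set ψ : R →* (ZMod (Nat.card V))ˣ := (IsCyclic.mulAutMulEquiv V).toMonoidHom.comp φ with hψ
  have hinj : Function.Injective ψ := by
    intro x y hxy
    exact h.inj ((IsCyclic.mulAutMulEquiv V).injective hxy)
  have hcyc : IsCyclic R := isCyclic_of_injective ψ hinj
  constructor
  · obtain ⟨g, hg⟩ := hcyc.exists_generator
    have h1 := dich_idx g
    have h2 : Subgroup.zpowers g = ⊤ := by
      rw [eq_top_iff]; intro x _; exact hg x
    rw [h2, Subgroup.index_top] at h1
    omega
  · have h1 := Nat.card_le_card_of_injective ψ hinj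
    rw [Nat.card_eq_fintype_card (α := (ZMod (Nat.card V))ˣ), ZMod.card_units, hV] at h1
    exact h1

end Cfsg.Agent.Lib.Helper68.FI
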