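import Mathlib
import Cfsg.Agent.Lib.Helper70.FI.Defs

set_option autoImplicit false

namespace Cfsg.Agent.Lib.Helper68.FI
open Cfsg.Agent.Lib.Helper70.FI

universe u

section
variable {R V : Type*} [Group R] [CommGroup V] (φ : R →* MulAut V) (U : Subgroup V)

/-- restriction of the action to an invariant subgroup. -/
def redRes (hU : Inv φ U) : R →* MulAut ↥U where
  toFun g :=
    { toFun := fun v => ⟨φ g v, hU g v v.2⟩
      invFun := fun v => ⟨φ g⁻¹ v, hU g⁻¹ v v.2⟩
      left_inv := fun v => by
        apply Subtype.ext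
        change φ g⁻¹ (φ g v) = v
        rw [← MulAut.mul_apply, ← map_mul, inv_mul_cancel, map_one, MulAut.one_apply]
      right_inv := fun v => by
        apply Subtype.ext
        change φ g (φ g⁻¹ v) = v
        rw [← MulAut.mul_apply, ← map_mul, mul_inv_cancel, map_one, MulAut.one_apply]
      map_mul' := fun v w => by
        apply Subtype.ext
        change φ g (v * w) = φ g v * φ g w
        rw [map_mul] }
  map_one' := by
    ext v
    change φ 1 (v : V) = v
    rw [map_one, MulAut.one_apply]
  map_mul' g g' := by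
    ext v
    change φ (g * g') (v : V) = φ g (φ g' v)
    rw [map_mul, MulAut.mul_apply]

theorem redRes_apply (hU : Inv φ U) (g : R) (v : ↥U) : ((redRes φ U hU g v : ↥U) : V) = φ g v := rfl

theorem red_map_eq (hU : Inv φ U) (g : R) : U.map ((φ g : V ≃* V) : V →* V) = U := by
  apply le_antisymm
  · rintro _ ⟨v, hv, rfl⟩
    exact hU g v hv
  · intro v hv
    refine ⟨φ g⁻¹ v, hU g⁻¹ v hv, ?_⟩
    change φ g (φ g⁻¹ v) = v
    rw [← MulAut.mul_apply, ← map_mul, mul_inv_cancel, map_one, MulAut.one_apply]

/-- the action on the quotient by an invariant subgroup. -/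
noncomputable def redQuo (hU : Inv φ U) : R →* MulAut (V ⧸ U) where
  toFun g := QuotientGroup.congr U U (φ g) (red_map_eq φ U hU g)
  map_one' := by
    ext x
    induction x using QuotientGroup.induction_on with
    | H v =>
      change ((φ 1 v : V) : V ⧸ U) = _
      rw [map_one, MulAut.one_apply]; rfl
  map_mul' g g' := by
    ext x
    induction x using QuotientGroup.induction_on with
    | H v =>
      change ((φ (g * g') v : V) : V ⧸ U) = ((φ g (φ g' v) : V) : V ⧸ U)
      rw [map_mul, MulAut.mul_apply]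

theorem redQuo_mk (hU : Inv φ U) (g : R) (v : V) :
    redQuo φ U hU g (v : V ⧸ U) = ((φ g v : V) : V ⧸ U) := rfl

end

theorem red_of {r : ℕ} (hr : r.Prime) (hr2 : r ≠ 2) {R V : Type u} [Group R] [CommGroup V]
    {φ : R →* MulAut V} (h : Cfg r R V φ) (U : Subgroup V) (hU : Inv φ U)
    (hext : ∀ (K : Subgroup R) [K.Normal], b R ≤ b (R ⧸ K) * b ↥K) :
    ∃ (R₁ : Type u) (_ : Group R₁) (φ₁ : R₁ →* MulAut ↥U) (K : Subgroup R)
      (φ₂ : ↥K →* MulAut (V ⧸ U)), Cfg r R₁ ↥U φ₁ ∧ Cfg r ↥K (V ⧸ U) φ₂ ∧ b R ≤ b R₁ * b ↥K ∧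
        Nat.card R = Nat.card R₁ * Nat.card ↥K := by
  have := h.finR
  have := h.finV
  set ρ := redRes φ U hU with hρ
  refine ⟨R ⧸ ρ.ker, inferInstance, QuotientGroup.kerLift ρ, ρ.ker,
    (redQuo φ U hU).comp ρ.ker.subtype, ?_, ?_, hext ρ.ker,
    Subgroup.card_eq_card_quotient_mul_card_subgroup ρ.ker⟩
  · refine ⟨inferInstance, inferInstance, h.two.to_quotient _, ?_, QuotientGroup.kerLift_injective ρ⟩
    intro v
    apply Subtype.ext
    change (v : V) ^ r = 1
    exact h.exp v
  · refine ⟨inferInstance, inferInstance, h.two.to_subgroup _, ?_, ?_⟩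
    · intro x
      induction x using QuotientGroup.induction_on with
      | H v =>
        rw [← QuotientGroup.mk_pow, h.exp v]; rfl
    · rw [injective_iff_map_eq_one]
      intro g hg
      apply Subtype.ext
      change (g : R) = 1
      apply h.inj
      rw [map_one]
      ext v
      rw [MulAut.one_apply]
      -- `g` is trivial on `U`
      have hgU : ∀ u ∈ U, φ (g : R) u = u := by
        intro u hu
        have h1 : ρ (g : R) = 1 := g.2
        have h2 := congrArg (fun e : MulAut ↥U => ((e ⟨u, hu⟩ : ↥U) : V)) h1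
        exact h2
      -- `g` is trivial on `V / U`
      have hc : (φ (g : R) v) * v⁻¹ ∈ U := by
        have h1 := congrArg (fun e : MulAut (V ⧸ U) => e (v : V ⧸ U)) hg
        change ((φ (g : R) v : V) : V ⧸ U) = (v : V ⧸ U) at h1
        rw [QuotientGroup.eq] at h1
        have h2 := U.inv_mem h1
        rw [mul_inv_rev, inv_inv] at h2
        rw [mul_comm]
        exact h2
      set c := (φ (g : R) v) * v⁻¹ with hcdef
      have hgv : φ (g : R) v = v * c := by
        rw [hcdef, mul_comm v, inv_mul_cancel_right]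
      have hpow : ∀ k : ℕ, φ ((g : R) ^ k) v = v * c ^ k := by
        intro k
        induction k with
        | zero => simp
        | succ k ih =>
          rw [pow_succ', map_mul, MulAut.mul_apply, ih, map_mul, hgv, hgU _ (U.pow_mem hc k),
            pow_succ', mul_assoc]
      obtain ⟨j, hj⟩ := h.two (g : R)
      have h1 : c ^ (2 ^ j) = 1 := by
        have := hpow (2 ^ j)
        rw [hj, map_one, MulAut.one_apply] at this
        exact (mul_eq_left.1 this.symm)
      have h2 : c ^ r = 1 := h.exp c
      have hcop : Nat.Coprime (2 ^ j) r := by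
        apply Nat.Coprime.pow_left
        exact (Nat.coprime_primes Nat.prime_two hr).2 (Ne.symm hr2)
      have h3 : c = 1 := by
        have h4 : orderOf c ∣ Nat.gcd (2 ^ j) r :=
          Nat.dvd_gcd (orderOf_dvd_of_pow_eq_one h1) (orderOf_dvd_of_pow_eq_one h2)
        rw [hcop, Nat.dvd_one, orderOf_eq_one_iff] at h4
        exact h4
      rw [hgv, h3, mul_one]

end Cfsg.Agent.Lib.Helper68.FI
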