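import Mathlib
import Cfsg.Agent.Lib.Helper68.Meta3
import Cfsg.Agent.Lib.Helper3.Frattini

set_option autoImplicit false
set_option linter.unusedSectionVars false

namespace Cfsg.Agent.Lib.Helper68

lemma index_eq_pow_of_card {p : ℕ} (hp : p.Prime) {G : Type*} [Group G] {L : Subgroup G} {A N : ℕ}
    (h1 : Nat.card L = p ^ A) (h2 : Nat.card G = p ^ N) : A ≤ N ∧ L.index = p ^ (N - A) := by
  have h6 := Subgroup.card_mul_index L
  rw [h1, h2] at h6
  have hAle : A ≤ N := by
    have : p ^ A ∣ p ^ N := Dvd.intro _ h6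
    exact (Nat.pow_dvd_pow_iff_le_right hp.one_lt).1 this
  refine ⟨hAle, ?_⟩
  have h8 : p ^ N = p ^ A * p ^ (N - A) := by
    rw [← pow_add]; congr 1; omega
  rw [h8] at h6
  exact Nat.eq_of_mul_eq_mul_left (Nat.pow_pos hp.pos) h6

section free

variable {p : ℕ} [hp : Fact p.Prime] {G : Type*} [Group G] [Finite G]

theorem frattini_eq_agemo (hG : IsPGroup p G) (hmc : Cfsg.IsMetacyclic G) :
    frattini G = agemo p 1 G := by
  apply le_antisymm
  · apply Cfsg.Agent.Lib.Helper3.frattini_le_of_elementary_quotient hp.out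
    · obtain ⟨a, b, r, m, l, h⟩ := exists_MC hG hmc
      rw [h.commutator_eq, Subgroup.zpowers_le]
      obtain ⟨c, hc⟩ := h.dvd
      rw [hc, mul_comm, pow_mul]
      have := pow_mem_agemo p 1 (a ^ c)
      rwa [pow_one] at this
    · intro x
      have := pow_mem_agemo p 1 x
      rwa [pow_one] at this
  · unfold agemo
    rw [Subgroup.closure_le]
    rintro _ ⟨y, rfl⟩
    rw [pow_one]
    exact Cfsg.Agent.Lib.Helper3.pow_p_mem_frattini hG y

end free

end Cfsg.Agent.Lib.Helper68
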