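import Mathlib
import Cfsg.Agent.Lib.Helper68.Meta4

set_option autoImplicit false
set_option linter.unusedSectionVars false

namespace Cfsg.Agent.Lib.Helper68

namespace MC

variable {p : ℕ} [hp : Fact p.Prime] {G : Type*} [Group G] {a b : G} {r m l : ℕ}

lemma card_agemo_le (h : MC p a b r m l) (hodd : p ≠ 2) {s s' : ℕ} (hs : s ≤ s') :
    Nat.card (agemo p s G) ≤ p ^ (2 * (s' - s)) * Nat.card (agemo p s' G) := by
  have := h.finite
  obtain ⟨d, rfl⟩ := Nat.exists_eq_add_of_le hs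
  rw [Nat.add_sub_cancel_left]
  have hk : 0 < p ^ d := Nat.pow_pos hp.out.pos
  let F : Fin (p ^ d) × Fin (p ^ d) × agemo p (s + d) G → G :=
    fun x => a ^ (p ^ s * (x.1 : ℕ)) * (x.2.2 : G) * b ^ (p ^ s * (x.2.1 : ℕ))
  have hsub : ((agemo p s G : Subgroup G) : Set G) ⊆ Set.range F := by
    intro g hg
    obtain ⟨i, j, rfl⟩ := (h.mem_agemo hodd s g).1 hg
    have hu : a ^ (p ^ (s + d) * (i / p ^ d)) * b ^ (p ^ (s + d) * (j / p ^ d)) ∈ agemo p (s + d) G :=
      (h.mem_agemo hodd _ _).2 ⟨_, _, rfl⟩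
    refine ⟨(⟨i % p ^ d, Nat.mod_lt _ hk⟩, ⟨j % p ^ d, Nat.mod_lt _ hk⟩, ⟨_, hu⟩), ?_⟩
    change a ^ (p ^ s * (i % p ^ d)) *
      (a ^ (p ^ (s + d) * (i / p ^ d)) * b ^ (p ^ (s + d) * (j / p ^ d))) * b ^ (p ^ s * (j % p ^ d)) = _
    rw [← mul_assoc, ← pow_add, mul_assoc, ← pow_add]
    congr 2
    · conv_rhs => rw [← Nat.mod_add_div i (p ^ d)]
      rw [pow_add]; ring
    · conv_rhs => rw [← Nat.mod_add_div j (p ^ d)]
      rw [pow_add]; ring
  calc Nat.card (agemo p s G) = Nat.card ((agemo p s G : Subgroup G) : Set G) := rfl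
    _ ≤ Nat.card (Set.range F) := Nat.card_mono (Set.toFinite _) hsub
    _ ≤ Nat.card (Fin (p ^ d) × Fin (p ^ d) × agemo p (s + d) G) := Finite.card_range_le F
    _ = p ^ (2 * d) * Nat.card (agemo p (s + d) G) := by
      rw [Nat.card_prod, Nat.card_prod, Nat.card_fin, two_mul, pow_add, mul_assoc]

theorem card_agemo (h : MC p a b r m l) (hodd : p ≠ 2) {s : ℕ}
    (hs : s ≤ m - padicValNat p (r - 1)) :
    Nat.card (agemo p s G) =
      Nat.card (Subgroup.center G) * p ^ (2 * (m - padicValNat p (r - 1) - s)) := by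
  have := h.finite
  set n := m - padicValNat p (r - 1) with hn
  have h1 := h.card_agemo_le hodd (Nat.zero_le s)
  have h2 := h.card_agemo_le hodd hs
  rw [h.agemo_eq_center hodd] at h2
  rw [agemo_zero, Subgroup.card_top, Nat.sub_zero] at h1
  have h3 := Subgroup.card_mul_index (Subgroup.center G)
  rw [h.index_center hodd, ← hn] at h3
  apply le_antisymm
  · rw [mul_comm]; exact h2
  · rw [← h3] at h1
    have h4 : p ^ (2 * n) = p ^ (2 * s) * p ^ (2 * (n - s)) := by
      rw [← pow_add]; congr 1; omega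
    rw [h4] at h1
    have h5 : p ^ (2 * s) * (Nat.card (Subgroup.center G) * p ^ (2 * (n - s))) ≤
        p ^ (2 * s) * Nat.card (agemo p s G) := by
      calc _ = Nat.card (Subgroup.center G) * (p ^ (2 * s) * p ^ (2 * (n - s))) := by ring
        _ ≤ _ := h1
    exact Nat.le_of_mul_le_mul_left h5 (Nat.pow_pos hp.out.pos)

end MC

theorem card_agemo {p : ℕ} [hp : Fact p.Prime] {G : Type*} [Group G] [Finite G] (hodd : p ≠ 2)
    (hG : IsPGroup p G) (hmc : Cfsg.IsMetacyclic G) {n : ℕ}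
    (hn : Nat.card (commutator G) = p ^ n) {s : ℕ} (hs : s ≤ n) :
    Nat.card (agemo p s G) = Nat.card (Subgroup.center G) * p ^ (2 * (n - s)) := by
  obtain ⟨a, b, r, m, l, h⟩ := exists_MC hG hmc
  rw [h.card_commutator] at hn
  obtain rfl := Nat.pow_right_injective hp.out.two_le hn
  exact h.card_agemo hodd hs

end Cfsg.Agent.Lib.Helper68
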