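import Mathlib
import Cfsg.Agent.Lib.Helper68.Meta5
import Cfsg.Agent.Lib.Helper56.CentrallyLarge
import Cfsg.Agent.S3879
import Cfsg.Agent.S3886

set_option autoImplicit false
set_option linter.unusedSectionVars false

namespace Cfsg.Agent.Lib.Helper68

/-- `|Z⟨g⟩| ≥ k |Z|` when `g^i ∈ Z ↔ k ∣ i` -/
lemma card_sup_zpowers_ge {G : Type*} [Group G] [Finite G] (Z : Subgroup G) (g : G) {k : ℕ}
    (hk : ∀ i : ℕ, g ^ i ∈ Z ↔ k ∣ i) :
    k * Nat.card Z ≤ Nat.card (Z ⊔ Subgroup.zpowers g : Subgroup G) := by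
  let F : Fin k × Z → (Z ⊔ Subgroup.zpowers g : Subgroup G) := fun x =>
    ⟨g ^ (x.1 : ℕ) * (x.2 : G), Subgroup.mul_mem _
      (Subgroup.pow_mem _ (Subgroup.mem_sup_right (Subgroup.mem_zpowers g)) _)
      (Subgroup.mem_sup_left x.2.2)⟩
  have key : ∀ i i' : ℕ, i ≤ i' → i' < k → ∀ z z' : G, z ∈ Z → z' ∈ Z →
      g ^ i * z = g ^ i' * z' → i = i' := by
    intro i i' hii hi' z z' hz hz' h
    obtain ⟨d, rfl⟩ := Nat.exists_eq_add_of_le hii
    rw [pow_add, mul_assoc, mul_right_inj] at h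
    have h1 : g ^ d ∈ Z := by
      have : g ^ d = z * z'⁻¹ := by rw [h, mul_inv_cancel_right]
      rw [this]
      exact Z.mul_mem hz (Z.inv_mem hz')
    obtain ⟨c, hc⟩ := (hk d).1 h1
    rcases Nat.eq_zero_or_pos c with rfl | hc0
    · omega
    · exfalso
      have : k ≤ k * c := Nat.le_mul_of_pos_right k hc0
      omega
  have hF : Function.Injective F := by
    rintro ⟨⟨i, hi⟩, ⟨z, hz⟩⟩ ⟨⟨i', hi'⟩, ⟨z', hz'⟩⟩ h
    have h1 : g ^ i * z = g ^ i' * z' := congrArg Subtype.val h
    have h2 : i = i' := by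
      rcases Nat.le_total i i' with h3 | h3
      · exact key i i' h3 hi' z z' hz hz' h1
      · exact (key i' i h3 hi z' z hz' hz h1.symm).symm
    subst h2
    rw [mul_right_inj] at h1
    subst h1
    rfl
  have := Nat.card_le_card_of_injective F hF
  rwa [Nat.card_prod, Nat.card_fin] at this

namespace MC

variable {p : ℕ} [hp : Fact p.Prime] {G : Type*} [Group G] {a b : G} {r m l : ℕ}

/-- if `g^(p^k)` is central then `g ∈ ℧_{n-k}` -/
lemma mem_agemo_of_pow_mem_center (h : MC p a b r m l) (hodd : p ≠ 2) {k : ℕ}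
    (hk : k ≤ m - padicValNat p (r - 1)) {g : G} (hg : g ^ p ^ k ∈ Subgroup.center G) :
    g ∈ agemo p (m - padicValNat p (r - 1) - k) G := by
  set n := m - padicValNat p (r - 1) with hn
  have hpk : p ^ k ≠ 0 := (Nat.pow_pos hp.out.pos).ne'
  obtain ⟨i, j, rfl⟩ := h.gen g
  rw [h.pow_formula, h.mem_center_coord hodd, ← hn] at hg
  obtain ⟨h1, h2⟩ := hg
  have hj : p ^ (n - k) ∣ j := by
    have h3 : p ^ n = p ^ (n - k) * p ^ k := by rw [← pow_add]; congr 1; omega
    rw [h3] at h2
    exact Nat.dvd_of_mul_dvd_mul_right (Nat.pow_pos hp.out.pos) h2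
  have hi : p ^ (n - k) ∣ i := by
    rcases Nat.eq_zero_or_pos i with rfl | hi0
    · exact dvd_zero _
    rw [pow_dvd_iff_val (Nat.mul_ne_zero hi0.ne' (gs_ne_zero hpk)),
      padicValNat.mul hi0.ne' (gs_ne_zero hpk),
      val_gs hodd (h.rpow_pos j) (dvd_pow_sub_one h.dvd j) hpk, padicValNat.prime_pow] at h1
    rw [pow_dvd_iff_val hi0.ne']
    omega
  obtain ⟨i', rfl⟩ := hi
  obtain ⟨j', rfl⟩ := hj
  exact (h.mem_agemo hodd _ _).2 ⟨i', j', rfl⟩

end MC

section free

variable {p : ℕ} [hp : Fact p.Prime] {G : Type*} [Group G] [Finite G]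

open Cfsg.Agent.Lib.Helper56

theorem max_eq_card_mul (hodd : p ≠ 2) (hG : IsPGroup p G) (hmc : Cfsg.IsMetacyclic G) :
    Cfsg.maxCentralizerProduct G = Nat.card G * Nat.card (Subgroup.center G) := by
  rw [← max_eq_max, (Cfsg.Agent.S3886.result hodd hG hmc).1]
  have h1 := Cfsg.Agent.S3879.result hodd hG hmc
  have h2 := Subgroup.card_mul_index (Subgroup.center G)
  have h3 := Subgroup.card_mul_index (commutator G)
  rw [h1] at h2
  have h4 : 0 < Nat.card (commutator G) ^ 2 := Nat.pow_pos Nat.card_pos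
  apply Nat.eq_of_mul_eq_mul_right h4
  calc (commutator G).index ^ 2 * Nat.card (commutator G) ^ 2
      = (Nat.card (commutator G) * (commutator G).index) ^ 2 := by ring
    _ = Nat.card G * Nat.card G := by rw [h3]; ring
    _ = Nat.card G * (Nat.card (Subgroup.center G) * Nat.card (commutator G) ^ 2) := by rw [h2]
    _ = _ := by ring

theorem large_center_sup_zpowers (hodd : p ≠ 2) (hG : IsPGroup p G) (hmc : Cfsg.IsMetacyclic G)
    (g : G) : Cfsg.IsCentralizerLarge (Subgroup.center G ⊔ Subgroup.zpowers g) := by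
  rw [isCentralizerLarge_iff]
  apply le_antisymm (cdm_le_max _)
  rw [max_eq_card_mul hodd hG hmc]
  obtain ⟨a, b, r, m, l, h⟩ := exists_MC hG hmc
  set n := m - padicValNat p (r - 1) with hn
  obtain ⟨M, hM⟩ := IsPGroup.iff_orderOf.1 hG g
  obtain ⟨k, -, hk⟩ := exists_pow_mem_iff hM (Subgroup.center G)
  have hkn : k ≤ n := by
    have h1 : g ^ p ^ n ∈ Subgroup.center G := by
      rw [← h.agemo_eq_center hodd]
      exact pow_mem_agemo p n g
    rw [hk, Nat.pow_dvd_pow_iff_le_right hp.out.one_lt] at h1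
    exact h1
  have h1 := h.mem_agemo_of_pow_mem_center hodd hkn ((hk _).2 dvd_rfl)
  have h2 := h.index_centralizer_le_of_mem_agemo hodd _ h1
  have h3 : m - (padicValNat p (r - 1) + (m - padicValNat p (r - 1) - k)) ≤ k := by omega
  have h4 : (Subgroup.centralizer ({g} : Set G)).index ≤ p ^ k :=
    h2.trans (Nat.pow_le_pow_right hp.out.pos h3)
  have h5 := card_sup_zpowers_ge (Subgroup.center G) g hk
  have h6 : Subgroup.centralizer ({g} : Set G) ≤
      Subgroup.centralizer ((Subgroup.center G ⊔ Subgroup.zpowers g : Subgroup G) : Set G) := by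
    rw [← Subgroup.le_centralizer_iff, sup_le_iff]
    refine ⟨Subgroup.center_le_centralizer _, ?_⟩
    rw [Subgroup.zpowers_le, Subgroup.mem_centralizer_iff]
    intro x hx
    rw [SetLike.mem_coe, Subgroup.mem_centralizer_singleton_iff] at hx
    exact hx
  have h7 := Subgroup.card_le_of_le h6
  have h8 := Subgroup.card_mul_index (Subgroup.centralizer ({g} : Set G))
  unfold cdm
  calc Nat.card G * Nat.card (Subgroup.center G)
      = Nat.card (Subgroup.centralizer ({g} : Set G)) * (Subgroup.centralizer ({g} : Set G)).index *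
          Nat.card (Subgroup.center G) := by rw [h8]
    _ ≤ Nat.card (Subgroup.centralizer ({g} : Set G)) * p ^ k * Nat.card (Subgroup.center G) :=
        Nat.mul_le_mul_right _ (Nat.mul_le_mul_left _ h4)
    _ = (p ^ k * Nat.card (Subgroup.center G)) * Nat.card (Subgroup.centralizer ({g} : Set G)) := by
        ring
    _ ≤ _ := Nat.mul_le_mul h5 h7

theorem large_iff (hodd : p ≠ 2) (hG : IsPGroup p G) (hmc : Cfsg.IsMetacyclic G)
    (R : Subgroup G) : Cfsg.IsCentralizerLarge R ↔ Subgroup.center G ≤ R := by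
  constructor
  · intro hR
    rw [(cd_centralizer hR).2]
    exact Subgroup.center_le_centralizer _
  · intro hZ
    have h1 : sSup {A : Subgroup G | ∃ g ∈ R, A = Subgroup.center G ⊔ Subgroup.zpowers g} = R := by
      apply le_antisymm
      · apply sSup_le
        rintro _ ⟨g, hg, rfl⟩
        exact sup_le hZ (Subgroup.zpowers_le.2 hg)
      · intro g hg
        have h2 : Subgroup.center G ⊔ Subgroup.zpowers g ≤
            sSup {A : Subgroup G | ∃ g ∈ R, A = Subgroup.center G ⊔ Subgroup.zpowers g} :=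
          le_sSup ⟨g, hg, rfl⟩
        exact h2 (Subgroup.mem_sup_right (Subgroup.mem_zpowers g))
    have h3 : Cfsg.IsCentralizerLarge
        (sSup {A : Subgroup G | ∃ g ∈ R, A = Subgroup.center G ⊔ Subgroup.zpowers g}) := by
      refine sSup_of_sup_closed (fun A => Cfsg.IsCentralizerLarge A)
        (fun A B hA hB => (cd_lattice hA hB).1) _ ⟨_, 1, R.one_mem, rfl⟩ ?_
      rintro _ ⟨g, -, rfl⟩
      exact large_center_sup_zpowers hodd hG hmc g
    rwa [h1] at h3

end free

end Cfsg.Agent.Lib.Helper68
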