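import Mathlib
import Cfsg.Agent.Lib.Helper68.Meta3

set_option autoImplicit false
set_option linter.unusedSectionVars false

namespace Cfsg.Agent.Lib.Helper68

namespace MC

variable {p : ℕ} [hp : Fact p.Prime] {G : Type*} [Group G] {a b : G} {r m l : ℕ}

/-- solving `a^(x S) = a^u` -/
lemma exists_apow_mul_eq (h : MC p a b r m l) {S u : ℕ} (hS : S ≠ 0)
    (hu : p ^ padicValNat p S ∣ u) : ∃ x : ℕ, a ^ (x * S) = a ^ u := by
  obtain ⟨v, c₀, hc₀, rfl⟩ := Nat.exists_eq_pow_mul_and_not_dvd hS p hp.out.ne_one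
  have hpv : p ^ v ≠ 0 := (Nat.pow_pos hp.out.pos).ne'
  have hc0 : c₀ ≠ 0 := by
    rintro rfl
    exact hc₀ (dvd_zero p)
  have hv : padicValNat p (p ^ v * c₀) = v := by
    rw [padicValNat.mul hpv hc0, padicValNat.prime_pow, padicValNat.eq_zero_of_not_dvd hc₀, add_zero]
  rw [hv] at hu
  obtain ⟨u', rfl⟩ := hu
  have hcop : c₀.Coprime (orderOf (a ^ p ^ v)) := by
    rw [h.orderOf_apow hpv]
    exact Nat.Coprime.pow_right _ ((Nat.Prime.coprime_iff_not_dvd hp.out).2 hc₀).symm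
  obtain ⟨e, he⟩ := exists_pow_eq_self_of_coprime hcop
  refine ⟨e * u', ?_⟩
  have : a ^ (e * u' * (p ^ v * c₀)) = (((a ^ p ^ v) ^ c₀) ^ e) ^ u' := by
    rw [← pow_mul, ← pow_mul, ← pow_mul]
    congr 1
    ring
  rw [this, he, ← pow_mul]

lemma mem_zpowers_iff_nat (h : MC p a b r m l) (c x : G) :
    x ∈ Subgroup.zpowers c ↔ ∃ k : ℕ, x = c ^ k := by
  have := h.finite
  rw [← mem_powers_iff_mem_zpowers, Submonoid.mem_powers_iff]
  exact ⟨fun ⟨i, hi⟩ => ⟨i, hi.symm⟩, fun ⟨i, hi⟩ => ⟨i, hi.symm⟩⟩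

theorem exists_factorization (h : MC p a b r m l) (hodd : p ≠ 2) :
    ∃ A B : Subgroup G, IsCyclic A ∧ IsCyclic B ∧ A ⊓ B = ⊥ ∧
      Nat.card A * Nat.card B = Nat.card G := by
  have hfin := h.finite
  obtain ⟨w, hwm, hw⟩ := exists_pow_mem_iff h.ord (Subgroup.zpowers b)
  have hβN : b ^ p ^ l ∈ Subgroup.zpowers a := (h.quo _).2 dvd_rfl
  -- the inverse of `β = b^(p^l)` as a power of `a`
  obtain ⟨u, hu⟩ := (h.mem_zpowers_a hp.out.pos).1 (Subgroup.inv_mem _ hβN)
  have huw : p ^ w ∣ u := by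
    rw [← hw, ← hu]
    exact Subgroup.inv_mem _ (Subgroup.pow_mem _ (Subgroup.mem_zpowers b) _)
  by_cases hcase : l ≤ w ∨ w = m
  · -- split case
    have hu' : ∃ u' : ℕ, a ^ u' = (b ^ p ^ l)⁻¹ ∧ p ^ l ∣ u' := by
      rcases hcase with hlw | rfl
      · exact ⟨u, hu.symm, (pow_dvd_pow p hlw).trans huw⟩
      · refine ⟨0, ?_, dvd_zero _⟩
        rw [hu, pow_zero, eq_comm, h.apow_eq_one_iff]
        exact huw
    obtain ⟨u', hu'1, hu'2⟩ := hu'
    have hpl : p ^ l ≠ 0 := (Nat.pow_pos hp.out.pos).ne'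
    have hvS : padicValNat p (gs (r ^ 1) (p ^ l)) = l := by
      rw [val_gs hodd (h.rpow_pos 1) (dvd_pow_sub_one h.dvd 1) hpl, padicValNat.prime_pow]
    obtain ⟨x, hx⟩ := h.exists_apow_mul_eq (S := gs (r ^ 1) (p ^ l)) (u := u') (gs_ne_zero hpl)
      (by rw [hvS]; exact hu'2)
    set c := a ^ x * b ^ 1 with hc
    have hcl : c ^ p ^ l = 1 := by
      rw [hc, h.pow_formula, hx, hu'1, one_mul, inv_mul_cancel]
    have hcN : ∀ k : ℕ, c ^ k ∈ Subgroup.zpowers a ↔ p ^ l ∣ k := by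
      intro k
      rw [hc, h.pow_formula, Subgroup.mul_mem_cancel_left _
        (Subgroup.pow_mem _ (Subgroup.mem_zpowers a) _), one_mul, h.quo]
    have hc1 : ∀ k : ℕ, c ^ k = 1 ↔ p ^ l ∣ k := by
      intro k
      constructor
      · intro hk
        rw [← hcN, hk]
        exact Subgroup.one_mem _
      · rintro ⟨k', rfl⟩
        rw [pow_mul, hcl, one_pow]
    refine ⟨Subgroup.zpowers a, Subgroup.zpowers c, inferInstance, inferInstance, ?_, ?_⟩
    · rw [eq_bot_iff]
      rintro y ⟨hy1, hy2⟩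
      obtain ⟨k, rfl⟩ := (h.mem_zpowers_iff_nat c y).1 hy2
      rw [Subgroup.mem_bot, hc1, ← hcN]
      exact hy1
    · rw [Nat.card_zpowers, Nat.card_zpowers, h.ord, orderOf_eq_of_forall hc1, h.card_eq, pow_add]
  · -- non-split case
    have hwl : w < l := by omega
    have hwm' : w < m := by omega
    set β := b ^ p ^ l with hβ
    have hpw : p ^ w ≠ 0 := (Nat.pow_pos hp.out.pos).ne'
    have hpl : p ^ l ≠ 0 := (Nat.pow_pos hp.out.pos).ne'
    have hzβ : Subgroup.zpowers β = Subgroup.zpowers (a ^ p ^ w) := by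
      apply le_antisymm
      · rw [Subgroup.zpowers_le]
        obtain ⟨u', rfl⟩ := huw
        have : β = ((a ^ p ^ w) ^ u')⁻¹ := by rw [← pow_mul, ← hu, inv_inv]
        rw [this]
        exact Subgroup.inv_mem _ (Subgroup.pow_mem _ (Subgroup.mem_zpowers _) _)
      · rw [Subgroup.zpowers_le]
        have h1 : a ^ p ^ w ∈ Subgroup.zpowers b := (hw _).2 dvd_rfl
        obtain ⟨k, hk⟩ := (h.mem_zpowers_iff_nat b _).1 h1
        have h2 : b ^ k ∈ Subgroup.zpowers a := by
          rw [← hk]; exact Subgroup.pow_mem _ (Subgroup.mem_zpowers a) _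
        obtain ⟨k', rfl⟩ := (h.quo k).1 h2
        rw [hk, pow_mul]
        exact Subgroup.pow_mem _ (Subgroup.mem_zpowers _) _
    have hoβ : orderOf β = p ^ (m - w) := by
      rw [← Nat.card_zpowers, hzβ, Nat.card_zpowers, h.orderOf_apow hpw, padicValNat.prime_pow]
    have hob : orderOf b = p ^ l * p ^ (m - w) := by
      have h1 : p ^ l ∣ orderOf b := by
        rw [← h.quo, pow_orderOf_eq_one]
        exact Subgroup.one_mem _
      have h2 := orderOf_pow_of_dvd (x := b) hpl h1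
      rw [← hβ, hoβ] at h2
      rw [h2, Nat.mul_div_cancel' h1]
    set y := p ^ (l - w) with hy
    have hvS : ∀ k : ℕ, k ≠ 0 → padicValNat p (gs (r ^ y) k) = padicValNat p k := fun k hk =>
      val_gs hodd (h.rpow_pos y) (dvd_pow_sub_one h.dvd y) hk
    obtain ⟨x, hx⟩ := h.exists_apow_mul_eq (S := gs (r ^ y) (p ^ w)) (u := u) (gs_ne_zero hpw)
      (by rw [hvS _ hpw, padicValNat.prime_pow]; exact huw)
    have hyw : y * p ^ w = p ^ l := by
      rw [hy, ← pow_add]; congr 1; omega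
    set c := a ^ x * b ^ y with hc
    have hcw : c ^ p ^ w = 1 := by
      rw [hc, h.pow_formula, hx, hyw, ← hu, inv_mul_cancel]
    have hx0 : x ≠ 0 := by
      rintro rfl
      rw [zero_mul, pow_zero, ← hu, eq_comm, inv_eq_one] at hx
      rw [hx, orderOf_one] at hoβ
      have := Nat.one_lt_pow (show m - w ≠ 0 by omega) hp.out.one_lt
      omega
    have hvx : padicValNat p x = 0 := by
      have h1 : orderOf (a ^ (x * gs (r ^ y) (p ^ w))) = p ^ (m - w) := by
        rw [hx, ← hu, orderOf_inv, hoβ]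
      rw [h.orderOf_apow (Nat.mul_ne_zero hx0 (gs_ne_zero hpw)),
        padicValNat.mul hx0 (gs_ne_zero hpw), hvS _ hpw, padicValNat.prime_pow] at h1
      have := Nat.pow_right_injective hp.out.two_le h1
      omega
    have hcb : ∀ k : ℕ, c ^ k ∈ Subgroup.zpowers b ↔ p ^ w ∣ k := by
      intro k
      rcases Nat.eq_zero_or_pos k with rfl | hk
      · simp
      rw [hc, h.pow_formula, Subgroup.mul_mem_cancel_right _
        (Subgroup.pow_mem _ (Subgroup.mem_zpowers b) _), hw,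
        pow_dvd_iff_val (Nat.mul_ne_zero hx0 (gs_ne_zero hk.ne')),
        padicValNat.mul hx0 (gs_ne_zero hk.ne'), hvS _ hk.ne', hvx, zero_add,
        pow_dvd_iff_val hk.ne']
    have hc1 : ∀ k : ℕ, c ^ k = 1 ↔ p ^ w ∣ k := by
      intro k
      constructor
      · intro hk
        rw [← hcb, hk]
        exact Subgroup.one_mem _
      · rintro ⟨k', rfl⟩
        rw [pow_mul, hcw, one_pow]
    refine ⟨Subgroup.zpowers b, Subgroup.zpowers c, inferInstance, inferInstance, ?_, ?_⟩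
    · rw [eq_bot_iff]
      rintro z ⟨hz1, hz2⟩
      obtain ⟨k, rfl⟩ := (h.mem_zpowers_iff_nat c z).1 hz2
      rw [Subgroup.mem_bot, hc1, ← hcb]
      exact hz1
    · rw [Nat.card_zpowers, Nat.card_zpowers, hob, orderOf_eq_of_forall hc1, h.card_eq,
        ← pow_add, ← pow_add]
      congr 1
      omega

end MC

end Cfsg.Agent.Lib.Helper68
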