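import Mathlib

set_option autoImplicit false

namespace Cfsg.Agent.Lib.Helper68

section abstract

variable {𝓝 𝒰 : Type*} [Group 𝓝] [CommGroup 𝒰] [MulDistribMulAction 𝓝 𝒰] (𝓢 : Subgroup 𝓝)
  [Fintype (𝓝 ⧸ 𝓢)]

/-- the trace (relative norm) map from `𝓢`-fixed points to `𝓝`-fixed points. -/
noncomputable def trHom : 𝒰 →* 𝒰 where
  toFun u := ∏ q : 𝓝 ⧸ 𝓢, (q.out : 𝓝) • u
  map_one' := by simp
  map_mul' u v := by simp [smul_mul', Finset.prod_mul_distrib]

theorem trHom_apply (u : 𝒰) : trHom 𝓢 u = ∏ q : 𝓝 ⧸ 𝓢, (q.out : 𝓝) • u := rfl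

theorem smul_trHom {u : 𝒰} (hu : ∀ s ∈ 𝓢, s • u = u) (n : 𝓝) : n • trHom 𝓢 u = trHom 𝓢 u := by
  rw [trHom_apply, Finset.smul_prod']
  rw [← Equiv.prod_comp (MulAction.toPerm n : Equiv.Perm (𝓝 ⧸ 𝓢)) (fun q => (q.out : 𝓝) • u)]
  apply Finset.prod_congr rfl
  intro q _
  have h1 : ((n • q).out)⁻¹ * (n * q.out) ∈ 𝓢 := by
    rw [← QuotientGroup.eq]
    rw [QuotientGroup.out_eq']
    conv_lhs => rw [← QuotientGroup.out_eq' q]
    rfl
  have h2 := hu _ h1
  simp only [MulAction.toPerm_apply]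
  conv_rhs => rw [← h2]
  rw [smul_smul, smul_smul]
  congr 1
  group

theorem trHom_of_fixed {u : 𝒰} (hu : ∀ n : 𝓝, n • u = u) : trHom 𝓢 u = u ^ 𝓢.index := by
  rw [trHom_apply]
  simp only [hu, Finset.prod_const, Finset.card_univ]
  rw [Subgroup.index_eq_card, Nat.card_eq_fintype_card]

theorem trace_split [Finite 𝒰] (hcop : (𝓢.index).Coprime (Nat.card 𝒰)) :
    ∃ K : Subgroup 𝒰, (∀ k ∈ K, ∀ s ∈ 𝓢, s • k = k) ∧ (∀ k ∈ K, (∀ n : 𝓝, n • k = k) → k = 1) ∧
      ∀ z : 𝒰, (∀ s ∈ 𝓢, s • z = z) → ∃ w k : 𝒰, (∀ n : 𝓝, n • w = w) ∧ k ∈ K ∧ z = w * k := by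
  let K : Subgroup 𝒰 :=
    { carrier := {k | (∀ s ∈ 𝓢, s • k = k) ∧ trHom 𝓢 k = 1}
      one_mem' := ⟨fun s _ => smul_one s, map_one _⟩
      mul_mem' := by
        rintro a b ⟨ha, ha'⟩ ⟨hb, hb'⟩
        refine ⟨fun s hs => by rw [smul_mul', ha s hs, hb s hs], by rw [map_mul, ha', hb', one_mul]⟩
      inv_mem' := by
        rintro a ⟨ha, ha'⟩
        refine ⟨fun s hs => by rw [smul_inv', ha s hs], by rw [map_inv, ha', inv_one]⟩ }
  refine ⟨K, fun k hk => hk.1, ?_, ?_⟩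
  · intro k hk hfix
    have h1 : k ^ 𝓢.index = 1 := by rw [← trHom_of_fixed 𝓢 hfix]; exact hk.2
    have h2 : orderOf k ∣ 𝓢.index := orderOf_dvd_of_pow_eq_one h1
    have h3 : orderOf k ∣ Nat.card 𝒰 := orderOf_dvd_natCard k
    have h4 : orderOf k = 1 := Nat.eq_one_of_dvd_coprimes hcop h2 h3
    exact orderOf_eq_one_iff.mp h4
  · intro z hz
    set t := trHom 𝓢 z with ht
    have htfix : ∀ n : 𝓝, n • t = t := fun n => smul_trHom 𝓢 hz n
    have hc : (𝓢.index).Coprime (orderOf t) := hcop.coprime_dvd_right (orderOf_dvd_natCard t)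
    obtain ⟨a, ha⟩ := exists_pow_eq_self_of_coprime hc
    have hwfix : ∀ n : 𝓝, n • (t ^ a) = t ^ a := fun n => by rw [smul_pow', htfix n]
    refine ⟨t ^ a, (t ^ a)⁻¹ * z, hwfix, ⟨?_, ?_⟩, by group⟩
    · intro s hs
      rw [smul_mul', smul_inv', hwfix s, hz s hs]
    · have e : (t ^ a) ^ 𝓢.index = t := by rw [← pow_mul, mul_comm, pow_mul, ha]
      rw [map_mul, map_inv, trHom_of_fixed 𝓢 hwfix, e, ← ht]
      group

end abstract

section concrete

theorem mem_inf_centralizer {G : Type*} [Group G] {A B : Subgroup G} {x : G} :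
    x ∈ A ⊓ Subgroup.centralizer (B : Set G) ↔ x ∈ A ∧ ∀ s ∈ B, s * x = x * s := by
  rw [Subgroup.mem_inf, Subgroup.mem_centralizer_iff]
  rfl

theorem normalizer_le_normalizer_zc {G : Type*} [Group G] (H : Subgroup G) :
    Subgroup.normalizer (H : Set G) ≤
      Subgroup.normalizer ((H ⊓ Subgroup.centralizer (H : Set G) : Subgroup G) : Set G) := by
  have key : ∀ n ∈ Subgroup.normalizer (H : Set G), ∀ x ∈ H ⊓ Subgroup.centralizer (H : Set G),
      n * x * n⁻¹ ∈ H ⊓ Subgroup.centralizer (H : Set G) := by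
    intro n hn x hx
    obtain ⟨hx1, hx2⟩ := mem_inf_centralizer.mp hx
    refine mem_inf_centralizer.mpr ⟨(Subgroup.mem_normalizer_iff.mp hn x).mp hx1, ?_⟩
    intro s hs
    have hs' : n⁻¹ * s * n ∈ H := by
      have := (Subgroup.mem_normalizer_iff.mp ((Subgroup.normalizer (H : Set G)).inv_mem hn) s).mp hs
      simpa using this
    have := hx2 _ hs'
    calc s * (n * x * n⁻¹) = n * ((n⁻¹ * s * n) * x) * n⁻¹ := by group
      _ = n * (x * (n⁻¹ * s * n)) * n⁻¹ := by rw [this]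
      _ = n * x * n⁻¹ * s := by group
  intro n hn
  rw [Subgroup.mem_normalizer_iff]
  intro x
  refine ⟨key n hn x, fun h => ?_⟩
  have := key n⁻¹ ((Subgroup.normalizer (H : Set G)).inv_mem hn) _ h
  have e : n⁻¹ * (n * x * n⁻¹) * n⁻¹⁻¹ = x := by group
  rwa [e] at this

variable {G : Type*} [Group G] [Finite G] {p : ℕ} [Fact p.Prime]

/-- If `U` is an abelian subgroup of the Sylow subgroup `S`, normalized by `S`, containing `Z(S)`, such that the
elements of `U` centralized by `N_G(U)` are weakly closed in `S`, then the weakly closed elements form a direct factor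
of `Z(S)`. -/
theorem direct_factor_core (S : Sylow p G) (U : Subgroup G) (hUS : U ≤ S)
    (hUab : ∀ a ∈ U, ∀ b ∈ U, a * b = b * a)
    (hZU : (S : Subgroup G) ⊓ Subgroup.centralizer ((S : Subgroup G) : Set G) ≤ U)
    (hSN : (S : Subgroup G) ≤ Subgroup.normalizer (U : Set G))
    (hW : ∀ x ∈ U, (∀ n ∈ Subgroup.normalizer (U : Set G), n * x * n⁻¹ = x) →
      ∀ g : G, g * x * g⁻¹ ∈ (S : Subgroup G) → g * x * g⁻¹ = x) :
    ∃ W K : Subgroup G, (∀ x : G, x ∈ W ↔ (x ∈ (S : Subgroup G) ∧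
        ∀ g : G, g * x * g⁻¹ ∈ (S : Subgroup G) → g * x * g⁻¹ = x)) ∧
      K ≤ ((S : Subgroup G) ⊓ Subgroup.centralizer ((S : Subgroup G) : Set G)) ∧ W ⊓ K = ⊥ ∧
      W ⊔ K = ((S : Subgroup G) ⊓ Subgroup.centralizer ((S : Subgroup G) : Set G)) := by
  classical
  let _ : CommGroup ↥U :=
    { (inferInstance : Group ↥U) with mul_comm := fun a b => Subtype.ext (hUab a a.2 b b.2) }
  let 𝓢 : Subgroup ↥(Subgroup.normalizer (U : Set G)) :=
    (S : Subgroup G).subgroupOf (Subgroup.normalizer (U : Set G))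
  have : Fintype (↥(Subgroup.normalizer (U : Set G)) ⧸ 𝓢) := Fintype.ofFinite _
  have hcop : 𝓢.index.Coprime (Nat.card ↥U) := by
    have h1 : 𝓢.index ∣ (S : Subgroup G).index := by
      have := Subgroup.relIndex_mul_index hSN
      exact Dvd.intro _ this
    have h2 : ¬ p ∣ 𝓢.index := fun h => S.not_dvd_index (h.trans h1)
    obtain ⟨k, hk⟩ := IsPGroup.iff_card.mp (S.2.to_le hUS)
    rw [hk]
    exact Nat.Coprime.pow_right k ((Nat.Prime.coprime_iff_not_dvd Fact.out).mpr h2).symm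
  obtain ⟨K, hK1, hK2, hK3⟩ := trace_split (𝒰 := ↥U) 𝓢 hcop
  have hsm : ∀ (n : ↥(Subgroup.normalizer (U : Set G))) (u : ↥U),
      ((n • u : ↥U) : G) = (n : G) * u * (n : G)⁻¹ := fun _ _ => rfl
  -- characterisation of weakly closed elements
  have hchar : ∀ x : G, (x ∈ U ∧ ∀ n ∈ Subgroup.normalizer (U : Set G), n * x * n⁻¹ = x) ↔
      (x ∈ (S : Subgroup G) ∧ ∀ g : G, g * x * g⁻¹ ∈ (S : Subgroup G) → g * x * g⁻¹ = x) := by
    intro x
    constructor
    · rintro ⟨hxU, hx⟩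
      exact ⟨hUS hxU, hW x hxU hx⟩
    · rintro ⟨hxS, hx⟩
      have hxZ : x ∈ (S : Subgroup G) ⊓ Subgroup.centralizer ((S : Subgroup G) : Set G) := by
        refine mem_inf_centralizer.mpr ⟨hxS, ?_⟩
        intro s hs
        have := hx s ((S : Subgroup G).mul_mem ((S : Subgroup G).mul_mem hs hxS)
          ((S : Subgroup G).inv_mem hs))
        calc s * x = s * x * s⁻¹ * s := by group
          _ = x * s := by rw [this]
      have hxU := hZU hxZ
      refine ⟨hxU, fun n hn => hx n (hUS ?_)⟩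
      exact (Subgroup.mem_normalizer_iff.mp hn x).mp hxU
  let W : Subgroup G := U ⊓ Subgroup.centralizer ((Subgroup.normalizer (U : Set G) : Subgroup G) : Set G)
  have hWmem : ∀ x : G, x ∈ W ↔ (x ∈ U ∧ ∀ n ∈ Subgroup.normalizer (U : Set G), n * x * n⁻¹ = x) := by
    intro x
    constructor
    · intro h
      obtain ⟨h1, h2⟩ := mem_inf_centralizer.mp h
      refine ⟨h1, fun n hn => ?_⟩
      rw [h2 n hn]; group
    · rintro ⟨h1, h2⟩
      refine mem_inf_centralizer.mpr ⟨h1, ?_⟩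
      intro n hn
      calc n * x = n * x * n⁻¹ * n := by group
        _ = x * n := by rw [h2 n hn]
  have hZmem : ∀ z : ↥U, (∀ s ∈ 𝓢, s • z = z) ↔
      (z : G) ∈ (S : Subgroup G) ⊓ Subgroup.centralizer ((S : Subgroup G) : Set G) := by
    intro z
    constructor
    · intro h
      refine mem_inf_centralizer.mpr ⟨hUS z.2, ?_⟩
      intro s hs
      have := congrArg Subtype.val (h ⟨s, hSN hs⟩ (Subgroup.mem_subgroupOf.mpr hs))
      rw [hsm] at this
      calc s * (z : G) = s * z * s⁻¹ * s := by group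
        _ = z * s := by rw [this]
    · intro h s hs
      obtain ⟨_, h2⟩ := mem_inf_centralizer.mp h
      apply Subtype.ext
      rw [hsm, h2 s (Subgroup.mem_subgroupOf.mp hs)]
      group
  have hNfix : ∀ z : ↥U, (∀ n : ↥(Subgroup.normalizer (U : Set G)), n • z = z) ↔ (z : G) ∈ W := by
    intro z
    rw [hWmem]
    constructor
    · intro h
      refine ⟨z.2, fun n hn => ?_⟩
      have := congrArg Subtype.val (h ⟨n, hn⟩)
      rwa [hsm] at this
    · rintro ⟨_, h⟩ n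
      apply Subtype.ext
      rw [hsm]
      exact h n n.2
  refine ⟨W, K.map U.subtype, fun x => (hWmem x).trans (hchar x), ?_, ?_, ?_⟩
  · rintro _ ⟨k, hk, rfl⟩
    exact (hZmem k).mp (hK1 k hk)
  · rw [eq_bot_iff]
    rintro _ ⟨hx1, ⟨k, hk, rfl⟩⟩
    have := hK2 k hk ((hNfix k).mpr hx1)
    rw [this]
    exact Subgroup.one_mem _
  · apply le_antisymm
    · rw [sup_le_iff]
      constructor
      · intro x hx
        have h1 := (hWmem x).mp hx
        refine mem_inf_centralizer.mpr ⟨hUS h1.1, ?_⟩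
        intro s hs
        calc s * x = s * x * s⁻¹ * s := by group
          _ = x * s := by rw [h1.2 s (hSN hs)]
      · rintro _ ⟨k, hk, rfl⟩
        exact (hZmem k).mp (hK1 k hk)
    · intro z hz
      obtain ⟨w, k, hw, hk, hzwk⟩ := hK3 ⟨z, hZU hz⟩ ((hZmem ⟨z, hZU hz⟩).mpr hz)
      have e : z = (w : G) * (k : G) := congrArg Subtype.val hzwk
      rw [e]
      exact Subgroup.mul_mem_sup ((hNfix w).mp hw) (Subgroup.mem_map_of_mem U.subtype hk)

/-- version of `direct_factor_core` with `U = Z(H)` for a subgroup `Z(S) ≤ H ≤ S` normalized by `S`. -/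
theorem direct_factor_of_center (S : Sylow p G) (H : Subgroup G) (hHS : H ≤ S)
    (hZH : (S : Subgroup G) ⊓ Subgroup.centralizer ((S : Subgroup G) : Set G) ≤ H)
    (hSN : (S : Subgroup G) ≤ Subgroup.normalizer (H : Set G))
    (hW : ∀ x ∈ (S : Subgroup G), (∀ n ∈ Subgroup.normalizer (H : Set G), n * x * n⁻¹ = x) →
      ∀ g : G, g * x * g⁻¹ ∈ (S : Subgroup G) → g * x * g⁻¹ = x) :
    ∃ W K : Subgroup G, (∀ x : G, x ∈ W ↔ (x ∈ (S : Subgroup G) ∧
        ∀ g : G, g * x * g⁻¹ ∈ (S : Subgroup G) → g * x * g⁻¹ = x)) ∧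
      K ≤ ((S : Subgroup G) ⊓ Subgroup.centralizer ((S : Subgroup G) : Set G)) ∧ W ⊓ K = ⊥ ∧
      W ⊔ K = ((S : Subgroup G) ⊓ Subgroup.centralizer ((S : Subgroup G) : Set G)) := by
  apply direct_factor_core S (H ⊓ Subgroup.centralizer (H : Set G)) (inf_le_left.trans hHS)
  · intro a ha b hb
    exact ((mem_inf_centralizer.mp hb).2 a (mem_inf_centralizer.mp ha).1)
  · intro z hz
    obtain ⟨_, h2⟩ := mem_inf_centralizer.mp hz
    exact mem_inf_centralizer.mpr ⟨hZH hz, fun s hs => h2 s (hHS hs)⟩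
  · exact hSN.trans (normalizer_le_normalizer_zc H)
  · intro x hx hfix
    exact hW x (hHS (mem_inf_centralizer.mp hx).1)
      (fun n hn => hfix n (normalizer_le_normalizer_zc H hn))

end concrete

end Cfsg.Agent.Lib.Helper68
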